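import Mathlib

/-!
# The commutant of a non-scalar endomorphism (helper402, S3677)

`finrank (commutant x) ≤ (n - 1)^2 + 1` for `x` not a scalar.
-/

set_option autoImplicit false

namespace Cfsg.Agent.H402.CS.Commutant

open Module

universe u v

variable {F : Type u} {V : Type v} [Field F] [AddCommGroup V] [Module F V] [FiniteDimensional F V]

/-- the endomorphisms commuting with `x` and killing `W` -/
def kc (x : Module.End F V) (W : Submodule F V) : Submodule F (Module.End F V) where
  carrier := {c | c * x = x * c ∧ ∀ w ∈ W, c w = 0}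
  add_mem' := by
    rintro a b ⟨h1, h2⟩ ⟨h3, h4⟩
    refine ⟨by rw [add_mul, mul_add, h1, h3], fun w hw => ?_⟩
    rw [LinearMap.add_apply, h2 w hw, h4 w hw, add_zero]
  zero_mem' := ⟨by rw [zero_mul, mul_zero], fun w _ => rfl⟩
  smul_mem' := by
    rintro r a ⟨h1, h2⟩
    refine ⟨by rw [smul_mul_assoc, mul_smul_comm, h1], fun w hw => ?_⟩
    rw [LinearMap.smul_apply, h2 w hw, smul_zero]

theorem mem_kc {x : Module.End F V} {W : Submodule F V} {c : Module.End F V} :
    c ∈ kc x W ↔ c * x = x * c ∧ ∀ w ∈ W, c w = 0 := Iff.rfl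

/-- evaluation at `v` -/
def ev (x : Module.End F V) (W : Submodule F V) (v : V) : ↥(kc x W) →ₗ[F] V where
  toFun c := (c : Module.End F V) v
  map_add' _ _ := rfl
  map_smul' _ _ := rfl

theorem finrank_le_range (x : Module.End F V) (W W' : Submodule F V) (hW : W ≤ W') (v : V)
    (h : ∀ c ∈ kc x W, c v = 0 → c ∈ kc x W') :
    finrank F ↥(kc x W) ≤ finrank F ↥(LinearMap.range (ev x W v)) + finrank F ↥(kc x W') := by
  have h1 := LinearMap.finrank_range_add_finrank_ker (ev x W v)
  have h2 : finrank F ↥(LinearMap.ker (ev x W v)) ≤ finrank F ↥(kc x W') := by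
    let f : ↥(LinearMap.ker (ev x W v)) →ₗ[F] ↥(kc x W') :=
      { toFun := fun c => ⟨(c : ↥(kc x W)), h _ c.1.2 (LinearMap.mem_ker.1 c.2)⟩
        map_add' := fun _ _ => rfl
        map_smul' := fun _ _ => rfl }
    apply LinearMap.finrank_le_finrank_of_injective (f := f)
    intro a b hab
    apply Subtype.ext
    apply Subtype.ext
    have h3 : ((f a : ↥(kc x W')) : Module.End F V) = f b := by rw [hab]
    exact h3
  omega

theorem exists_notMem {W : Submodule F V} (h : W ≠ ⊤) : ∃ v, v ∉ W := by
  by_contra hcon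
  push Not at hcon
  exact h (eq_top_iff.2 fun v _ => hcon v)

/-- the smallest invariant subspace containing `W` and `v` -/
def clo (x : Module.End F V) (W : Submodule F V) (v : V) : Submodule F V :=
  W ⊔ Submodule.span F (Set.range fun i : ℕ => (x ^ i) v)

theorem clo_le (x : Module.End F V) (W : Submodule F V) (v : V) : W ≤ clo x W v := le_sup_left

theorem pow_mem_clo (x : Module.End F V) (W : Submodule F V) (v : V) (i : ℕ) : (x ^ i) v ∈ clo x W v :=
  (le_sup_right : _ ≤ clo x W v) (Submodule.subset_span ⟨i, rfl⟩)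

theorem mem_clo (x : Module.End F V) (W : Submodule F V) (v : V) : v ∈ clo x W v := by
  have := pow_mem_clo x W v 0
  rwa [pow_zero, Module.End.one_apply] at this

theorem clo_inv (x : Module.End F V) (W : Submodule F V) (v : V) (hW : ∀ w ∈ W, x w ∈ W) :
    ∀ w ∈ clo x W v, x w ∈ clo x W v := by
  intro w hw
  obtain ⟨a, ha, b, hb, rfl⟩ := Submodule.mem_sup.1 hw
  rw [map_add]
  refine add_mem (clo_le x W v (hW a ha)) ?_
  induction hb using Submodule.span_induction with
  | mem z hz =>
    obtain ⟨i, rfl⟩ := hz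
    show x ((x ^ i) v) ∈ _
    rw [← Module.End.mul_apply, ← pow_succ']
    exact pow_mem_clo x W v (i + 1)
  | zero => rw [map_zero]; exact zero_mem _
  | add y z _ _ h1 h2 =>
    rw [map_add]
    exact add_mem (h1 (add_mem (clo_le x W v ha) (Submodule.mem_sup_right ‹_›)))
      (h2 (add_mem (clo_le x W v ha) (Submodule.mem_sup_right ‹_›)))
  | smul r y _ h1 =>
    rw [map_smul]
    exact Submodule.smul_mem _ _ (h1 (add_mem (clo_le x W v ha) (Submodule.mem_sup_right ‹_›)))

theorem kc_clo (x : Module.End F V) (W : Submodule F V) (v : V) {c : Module.End F V} (hc : c ∈ kc x W)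
    (hv : c v = 0) : c ∈ kc x (clo x W v) := by
  refine ⟨hc.1, ?_⟩
  intro w hw
  obtain ⟨a, ha, b, hb, rfl⟩ := Submodule.mem_sup.1 hw
  rw [map_add, hc.2 a ha, zero_add]
  have hcx : ∀ i : ℕ, c ((x ^ i) v) = 0 := by
    intro i
    have h1 : c * x ^ i = x ^ i * c := (show Commute c x from hc.1).pow_right i
    rw [← Module.End.mul_apply, h1, Module.End.mul_apply, hv, map_zero]
  induction hb using Submodule.span_induction with
  | mem z hz =>
    obtain ⟨i, rfl⟩ := hz
    exact hcx i
  | zero => rw [map_zero]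
  | add y z _ _ h1 h2 =>
    rw [map_add, h1 (add_mem (clo_le x W v ha) (Submodule.mem_sup_right ‹_›)),
      h2 (add_mem (clo_le x W v ha) (Submodule.mem_sup_right ‹_›)), add_zero]
  | smul r y _ h1 =>
    rw [map_smul, h1 (add_mem (clo_le x W v ha) (Submodule.mem_sup_right ‹_›)), smul_zero]

/-- the commutant modulo an invariant subspace -/
theorem finrank_kc_le {x : Module.End F V} (hx : ∀ c : F, ∃ v, x v ≠ c • v) (hn : 2 ≤ finrank F V) :
    ∀ (k : ℕ) (W : Submodule F V), (∀ w ∈ W, x w ∈ W) → finrank F V - finrank F ↥W = k →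
      finrank F ↥(kc x W) ≤ (finrank F V - 1) * k := by
  intro k
  induction k using Nat.strong_induction_on with
  | _ k ih =>
  intro W hW hk
  have hWle := Submodule.finrank_le W
  rcases Nat.eq_zero_or_pos k with rfl | hk0
  · have hWt : W = ⊤ := Submodule.eq_top_of_finrank_eq (by omega)
    have h1 : kc x W = ⊥ := by
      rw [eq_bot_iff]
      intro c hc
      rw [Submodule.mem_bot]
      ext v
      exact hc.2 v (hWt ▸ Submodule.mem_top)
    rw [h1, finrank_bot]; omega
  have hWt : W ≠ ⊤ := by
    rintro rfl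
    rw [finrank_top] at hk
    omega
  obtain ⟨v, hv⟩ := exists_notMem hWt
  have hlt : finrank F ↥W < finrank F ↥(clo x W v) := by
    apply Submodule.finrank_lt_finrank_of_lt
    refine lt_of_le_of_ne (clo_le x W v) ?_
    intro h
    exact hv (h ▸ mem_clo x W v)
  have hcle := Submodule.finrank_le (clo x W v)
  have h1 := finrank_le_range x W (clo x W v) (clo_le x W v) v (fun c hc hcv => kc_clo x W v hc hcv)
  have h2 := ih (finrank F V - finrank F ↥(clo x W v)) (by omega) (clo x W v) (clo_inv x W v hW) rfl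
  set n := finrank F V with hn'
  by_cases h3 : finrank F ↥(clo x W v) = finrank F ↥W + 1
  · -- `x v = c v + w`
    have h4 : x v ∈ W ⊔ Submodule.span F {v} := by
      have h5 : W ⊔ Submodule.span F {v} = clo x W v := by
        apply Submodule.eq_of_le_of_finrank_le
        · refine sup_le (clo_le x W v) ?_
          rw [Submodule.span_singleton_le_iff_mem]
          exact mem_clo x W v
        · rw [h3]
          have h6 : finrank F ↥W < finrank F ↥(W ⊔ Submodule.span F {v}) := by
            apply Submodule.finrank_lt_finrank_of_lt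
            refine lt_of_le_of_ne le_sup_left ?_
            intro h
            apply hv
            rw [h]
            exact Submodule.mem_sup_right (Submodule.mem_span_singleton_self v)
          omega
      rw [h5]
      exact clo_inv x W v hW v (mem_clo x W v)
    obtain ⟨w, hw, u, hu, hwu⟩ := Submodule.mem_sup.1 h4
    obtain ⟨c0, rfl⟩ := Submodule.mem_span_singleton.1 hu
    have h7 : LinearMap.range (ev x W v) ≤ LinearMap.ker (x - algebraMap F (Module.End F V) c0) := by
      rintro _ ⟨c, rfl⟩
      rw [LinearMap.mem_ker, LinearMap.sub_apply, Module.algebraMap_end_apply, sub_eq_zero]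
      show x ((c : Module.End F V) v) = c0 • (c : Module.End F V) v
      rw [← Module.End.mul_apply, ← c.2.1, Module.End.mul_apply, ← hwu, map_add, c.2.2 w hw, zero_add, map_smul]
    have h8 : finrank F ↥(LinearMap.ker (x - algebraMap F (Module.End F V) c0)) < n := by
      apply Submodule.finrank_lt
      intro h
      obtain ⟨v', hv'⟩ := hx c0
      apply hv'
      have h9 : v' ∈ LinearMap.ker (x - algebraMap F (Module.End F V) c0) := h ▸ Submodule.mem_top
      rw [LinearMap.mem_ker, LinearMap.sub_apply, Module.algebraMap_end_apply, sub_eq_zero] at h9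
      exact h9
    have h9 := Submodule.finrank_mono h7
    have h10 : n - finrank F ↥(clo x W v) = k - 1 := by omega
    rw [h10] at h2
    obtain ⟨k', rfl⟩ : ∃ k', k = k' + 1 := ⟨k - 1, by omega⟩
    rw [Nat.add_sub_cancel] at h2
    calc finrank F ↥(kc x W) ≤ (n - 1) + (n - 1) * k' := by omega
      _ = (n - 1) * (k' + 1) := by ring
  · have h4 : finrank F ↥(LinearMap.range (ev x W v)) ≤ n := Submodule.finrank_le _
    have h5 : n - finrank F ↥(clo x W v) ≤ k - 2 := by omega
    have h6 : 2 ≤ k := by omega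
    obtain ⟨k', rfl⟩ : ∃ k', k = k' + 2 := ⟨k - 2, by omega⟩
    rw [Nat.add_sub_cancel] at h5
    have h7 : (n - 1) * (n - finrank F ↥(clo x W v)) ≤ (n - 1) * k' := Nat.mul_le_mul_left _ h5
    calc finrank F ↥(kc x W) ≤ n + (n - 1) * k' := by omega
      _ ≤ 2 * (n - 1) + (n - 1) * k' := by omega
      _ = (n - 1) * (k' + 2) := by ring

/-- **The commutant bound.** -/
theorem finrank_commutant_le {x : Module.End F V} (hx : ∀ c : F, ∃ v, x v ≠ c • v) (hn : 2 ≤ finrank F V) :
    finrank F ↥(kc x ⊥) ≤ (finrank F V - 1) ^ 2 + 1 := by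
  -- a vector which is not an eigenvector
  obtain ⟨v, hv⟩ : ∃ v, LinearIndependent F ![v, x v] := by
    by_contra hcon
    push Not at hcon
    obtain ⟨c, hc⟩ := LinearMap.exists_eq_smul_id_of_forall_notLinearIndependent (f := x) hcon
    obtain ⟨v, hv⟩ := hx c
    exact hv (by rw [hc]; rfl)
  set W := clo x ⊥ v with hW
  have h2 : 2 ≤ finrank F ↥W := by
    have h3 : Submodule.span F (Set.range ![v, x v]) ≤ W := by
      rw [Submodule.span_le]
      rintro _ ⟨i, rfl⟩
      fin_cases i
      · exact mem_clo x ⊥ v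
      · exact clo_inv x ⊥ v (by intro w hw; rw [(Submodule.mem_bot F).1 hw, map_zero]; exact zero_mem _) v
          (mem_clo x ⊥ v)
    have h4 := Submodule.finrank_mono h3
    rw [finrank_span_eq_card hv, Fintype.card_fin] at h4
    exact h4
  have h1 := finrank_le_range x ⊥ W (clo_le x ⊥ v) v (fun c hc hcv => kc_clo x ⊥ v hc hcv)
  have h3 := finrank_kc_le hx hn (finrank F V - finrank F ↥W) W
    (clo_inv x ⊥ v (by intro w hw; rw [(Submodule.mem_bot F).1 hw, map_zero]; exact zero_mem _)) rfl
  have h4 : finrank F ↥(LinearMap.range (ev x ⊥ v)) ≤ finrank F V := Submodule.finrank_le _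
  obtain ⟨n', hn'⟩ : ∃ n', finrank F V = n' + 2 := ⟨finrank F V - 2, by omega⟩
  have h5 : (finrank F V - 1) * (finrank F V - finrank F ↥W) ≤ (finrank F V - 1) * n' :=
    Nat.mul_le_mul_left _ (by omega)
  have h6 : finrank F V - 1 = n' + 1 := by omega
  rw [h6] at h3 h5 ⊢
  calc finrank F ↥(kc x ⊥) ≤ (n' + 2) + (n' + 1) * n' := by omega
    _ ≤ (n' + 1) ^ 2 + 1 := by nlinarith

/-- **The commutant bound**, cardinalities. -/
theorem card_commutant_le [Finite F] {x : Module.End F V} (hx : ∀ c : F, ∃ v, x v ≠ c • v) (hn : 2 ≤ finrank F V) :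
    Nat.card {c : Module.End F V // c * x = x * c} ≤ Nat.card F ^ ((finrank F V - 1) ^ 2 + 1) := by
  have h1 : Nat.card {c : Module.End F V // c * x = x * c} = Nat.card ↥(kc x ⊥) := by
    refine Nat.card_congr (Equiv.subtypeEquivRight fun c => ?_)
    constructor
    · intro h
      refine ⟨h, fun w hw => ?_⟩
      rw [(Submodule.mem_bot F).1 hw, map_zero]
    · exact fun h => h.1
  rw [h1, Module.natCard_eq_pow_finrank (K := F) (V := ↥(kc x ⊥))]
  exact Nat.pow_le_pow_right Nat.card_pos (finrank_commutant_le hx hn)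

end Cfsg.Agent.H402.CS.Commutant
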