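import Mathlib

/-!
# The commutant of an element of a field of endomorphisms (helper402, S3677)
-/

set_option autoImplicit false

namespace Cfsg.Agent.H402.CS.FieldComm

open Module

universe u v w

variable {F : Type u} {V : Type v} [Field F] [AddCommGroup V] [Module F V] [FiniteDimensional F V]
  {K : Type w} [Field K] [Finite K] [Algebra F K]

/-- what commutes with `f k` commutes with `f` of the field generated by `k` -/
theorem comm_of_mem (f : K →ₐ[F] Module.End F V) (k : K) {c : Module.End F V} (hc : c * f k = f k * c)
    {e : K} (he : e ∈ IntermediateField.adjoin F {k}) : c * f e = f e * c := by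
  have : Finite F := Finite.of_injective _ (algebraMap F K).injective
  have hint : IsIntegral F k := Algebra.IsIntegral.isIntegral k
  have h1 : e ∈ Algebra.adjoin F {k} := by
    rw [← IntermediateField.adjoin_simple_toSubalgebra_of_isAlgebraic hint.isAlgebraic]
    exact he
  induction h1 using Algebra.adjoin_induction with
  | mem x hx => rw [Set.mem_singleton_iff.1 hx]; exact hc
  | algebraMap r => rw [AlgHom.commutes]; exact (Algebra.commutes r c).symm
  | add x y _ _ hx hy =>
    have hx' : c * f x = f x * c := hx (by
      have : x ∈ (IntermediateField.adjoin F {k}).toSubalgebra := by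
        rw [IntermediateField.adjoin_simple_toSubalgebra_of_isAlgebraic hint.isAlgebraic]; assumption
      exact this)
    have hy' : c * f y = f y * c := hy (by
      have : y ∈ (IntermediateField.adjoin F {k}).toSubalgebra := by
        rw [IntermediateField.adjoin_simple_toSubalgebra_of_isAlgebraic hint.isAlgebraic]; assumption
      exact this)
    rw [map_add, mul_add, add_mul, hx', hy']
  | mul x y _ _ hx hy =>
    have hx' : c * f x = f x * c := hx (by
      have : x ∈ (IntermediateField.adjoin F {k}).toSubalgebra := by
        rw [IntermediateField.adjoin_simple_toSubalgebra_of_isAlgebraic hint.isAlgebraic]; assumption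
      exact this)
    have hy' : c * f y = f y * c := hy (by
      have : y ∈ (IntermediateField.adjoin F {k}).toSubalgebra := by
        rw [IntermediateField.adjoin_simple_toSubalgebra_of_isAlgebraic hint.isAlgebraic]; assumption
      exact this)
    rw [map_mul, ← mul_assoc, hx', mul_assoc, hy', mul_assoc]

/-- **The size of the commutant of an element of a field of endomorphisms.** -/
theorem card_le (f : K →ₐ[F] Module.End F V) (k : K) (hk : ∀ a : F, algebraMap F K a ≠ k) :
    ∃ m, 2 * m ≤ finrank F V ∧
      Nat.card {c : Module.End F V // c * f k = f k * c} ≤ Nat.card F ^ (finrank F V * m) := by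
  have hF : Finite F := Finite.of_injective _ (algebraMap F K).injective
  have hV : Finite V := Module.finite_of_finite F
  let E := IntermediateField.adjoin F {k}
  let g : ↥E →+* Module.End F V := (f.comp E.val).toRingHom
  let instE : Module ↥E V := Module.compHom V g
  have hsmul : ∀ (e : ↥E) (v : V), e • v = (f (e : K)) v := fun e v => rfl
  have htower : IsScalarTower F ↥E V := ⟨fun a e v => by
    rw [hsmul, hsmul]
    have : ((a • e : ↥E) : K) = a • (e : K) := rfl
    rw [this, map_smul, LinearMap.smul_apply]⟩
  have hE : Finite ↥E := inferInstance
  have hfinE : Module.Finite ↥E V := inferInstance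
  have h1 : finrank F ↥E * finrank ↥E V = finrank F V := Module.finrank_mul_finrank F ↥E V
  have h2 : 2 ≤ finrank F ↥E := by
    by_contra hcon
    have h3 : 0 < finrank F ↥E := Module.finrank_pos
    have h4 : finrank F ↥E = 1 := by omega
    have h5 : E = ⊥ := IntermediateField.finrank_eq_one_iff.1 h4
    have h6 : k ∈ E := IntermediateField.mem_adjoin_simple_self F k
    rw [h5, IntermediateField.mem_bot] at h6
    obtain ⟨a, ha⟩ := h6
    exact hk a ha
  refine ⟨finrank ↥E V, by rw [← h1]; exact Nat.mul_le_mul_right _ h2, ?_⟩
  -- the injection
  let j : {c : Module.End F V // c * f k = f k * c} → (V →ₗ[↥E] V) := fun c =>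
    { toFun := fun v => (c : Module.End F V) v
      map_add' := fun v w => map_add _ v w
      map_smul' := fun e v => by
        rw [hsmul, ← Module.End.mul_apply, comm_of_mem f k c.2 e.2, Module.End.mul_apply]
        rfl }
  have hj : Function.Injective j := by
    intro a b hab
    apply Subtype.ext
    apply LinearMap.ext
    intro v
    exact congrArg (fun l : V →ₗ[↥E] V => l v) hab
  have hfin : Finite (V →ₗ[↥E] V) := Module.finite_of_finite ↥E
  refine (Nat.card_le_card_of_injective j hj).trans (le_of_eq ?_)
  rw [Module.natCard_eq_pow_finrank (K := ↥E) (V := V →ₗ[↥E] V), Module.finrank_linearMap, pow_mul,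
    ← Module.natCard_eq_pow_finrank (K := ↥E) (V := V), Module.natCard_eq_pow_finrank (K := F) (V := V), ← pow_mul]

end Cfsg.Agent.H402.CS.FieldComm
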