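import Mathlib
import Cfsg.Agent.S0033
import Cfsg.Agent.S1264
import Cfsg.Agent.Lib.Cores
import Cfsg.Agent.H969.CS.Perfect
import Cfsg.Agent.H363.Master

/-!
# One perfect prime (helper402, S3677)

`s` is a prime not adjacent to `p`, all elements of order `s` have centralizers of the same order `m`, and `m` is the only
centralizer order divisible by `s` and dividing `m`.  Then the centralizers of the elements of order `s` are nilpotent, and a
solvable normal `s'`-subgroup is a `p'`-group as soon as `O_p(G) = 1` and `O_l(G) = 1` for all primes `l` dividing `m`.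
-/

set_option autoImplicit false

namespace Cfsg.Agent.H402.CS.One

open Subgroup Cfsg Cfsg.Agent.H969.CS Cfsg.Agent.H363.Frat Cfsg.Agent.H363.Master

universe u

/-- `s` is a perfect prime for `p` -/
structure Perf (G : Type u) [Group G] [Finite G] (s p m : ℕ) : Prop where
  hs : s.Prime
  hp : p.Prime
  hsp : s ≠ p
  sG : s ∣ Nat.card G
  na : NonAdj G s p
  cent : ∀ y : G, orderOf y = s → Nat.card ↥(Cz y) = m
  min : ∀ c ∈ CO G, s ∣ c → c ∣ m → c = m

variable {G : Type u} [Group G] [Finite G] {s p m : ℕ}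

omit [Finite G] in
theorem nonAdj_of (hs : s.Prime) (hp : p.Prime)
    (h : ∀ y v : G, orderOf y = s → orderOf v = p → y * v ≠ v * y) : NonAdj G s p := by
  intro g hg
  have h1 : orderOf (g ^ p) = s := by
    rw [orderOf_pow_of_dvd hp.ne_zero (hg ▸ dvd_mul_left p s), hg]
    exact Nat.mul_div_cancel _ hp.pos
  have h2 : orderOf (g ^ s) = p := by
    rw [orderOf_pow_of_dvd hs.ne_zero (hg ▸ dvd_mul_right s p), hg]
    exact Nat.mul_div_cancel_left _ hs.pos
  exact h _ _ h1 h2 ((Commute.refl g).pow_pow _ _)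

theorem dvd_card_of_mem {H : Subgroup G} {x : G} (hx : x ∈ H) : orderOf x ∣ Nat.card ↥H := by
  have h1 : orderOf (⟨x, hx⟩ : H) = orderOf x := Subgroup.orderOf_mk x hx
  rw [← h1]
  exact orderOf_dvd_natCard _

theorem Perf.exists_y (h : Perf G s p m) : ∃ y : G, orderOf y = s := by
  have := Fact.mk h.hs
  exact exists_prime_orderOf_dvd_card' s h.sG

/-- the elements of order prime to `s` commuting with `y` are central in `C_G(y)` -/
theorem Perf.central (h : Perf G s p m) {y : G} (hy : orderOf y = s) {x : G} (hx : x ∈ Cz y)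
    (hco : ¬ s ∣ orderOf x) : Cz y ≤ Cz x := by
  have hcomm : y * x = x * y := (mem_Cz.1 hx).symm
  have hco' : Nat.Coprime (orderOf y) (orderOf x) := by
    rw [hy]
    exact (Nat.Prime.coprime_iff_not_dvd h.hs).2 hco
  have h1 : Cz (y * x) ≤ Cz y := fun z hz => (cz_mul hcomm hco' hz).1
  have h2 : Cz (y * x) ≤ Cz x := fun z hz => (cz_mul hcomm hco' hz).2
  have h3 : Nat.card ↥(Cz (y * x)) ∣ m := by
    rw [← h.cent y hy]
    exact Subgroup.card_dvd_of_le h1
  have hymem : y ∈ Cz (y * x) := by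
    rw [mem_Cz, mul_assoc, ← hcomm]
  have h4 : s ∣ Nat.card ↥(Cz (y * x)) := by
    have := dvd_card_of_mem hymem
    rwa [hy] at this
  have h5 := h.min _ (mem_CO _) h4 h3
  have h6 : Cz (y * x) = Cz y := Subgroup.eq_of_le_of_card_ge h1 (by rw [h5, h.cent y hy])
  rw [← h6]
  exact h2

/-- **The centralizer of an element of order `s` is nilpotent.** -/
theorem Perf.nilp (h : Perf G s p m) {y : G} (hy : orderOf y = s) : Group.IsNilpotent ↥(Cz y) := by
  have := Fact.mk h.hs
  have hq : IsPGroup s (↥(Cz y) ⧸ center ↥(Cz y)) := by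
    intro q
    obtain ⟨x, rfl⟩ := QuotientGroup.mk_surjective q
    obtain ⟨a, b, hb, hab⟩ := Nat.exists_eq_pow_mul_and_not_dvd (orderOf_pos x).ne' s h.hs.ne_one
    refine ⟨a, ?_⟩
    rw [← QuotientGroup.mk_pow, QuotientGroup.eq_one_iff, mem_center_iff]
    have h1 : orderOf (x ^ s ^ a) = b := by
      rw [orderOf_pow_of_dvd (pow_ne_zero _ h.hs.ne_zero) (hab ▸ dvd_mul_right _ _), hab]
      exact Nat.mul_div_cancel_left _ (pow_pos h.hs.pos _)
    have h2 : ¬ s ∣ orderOf ((x ^ s ^ a : ↥(Cz y)) : G) := by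
      rwa [Subgroup.orderOf_coe, h1]
    intro g
    have h3 := h.central hy (x ^ s ^ a).2 h2 g.2
    exact Subtype.ext (mem_Cz.1 h3)
  have h1 : Group.IsNilpotent (↥(Cz y) ⧸ center ↥(Cz y)) := hq.isNilpotent
  exact Group.of_quotient_center_nilpotent h1

/-- a group of order prime to `m` normalized by an element of order `s` is nilpotent -/
theorem Perf.nilpotent_of (h : Perf G s p m) {y : G} (hy : orderOf y = s) (A : Subgroup G)
    (hA : y ∈ normalizer (A : Set G)) (hm : (Nat.card ↥A).Coprime m) : Group.IsNilpotent ↥A := by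
  have hfix : ∀ a ∈ A, y * a * y⁻¹ = a → a = 1 := by
    intro a ha h1
    have h2 : a ∈ Cz y := by
      rw [mem_Cz]
      calc a * y = y * a * y⁻¹ * y := by rw [h1]
        _ = y * a := by group
    have h3 : orderOf a ∣ m := by
      rw [← h.cent y hy]
      exact dvd_card_of_mem h2
    have h4 := Nat.eq_one_of_dvd_coprimes hm (dvd_card_of_mem ha) h3
    exact orderOf_eq_one_iff.1 h4
  let φ : ↥A ≃* ↥A := MulAut.conjNormal (H := A.subgroupOf (normalizer (A : Set G))) ⟨y, hA⟩ |> fun e =>
    ((Subgroup.subgroupOfEquivOfLe (le_normalizer (H := A))).symm.trans e).trans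
      (Subgroup.subgroupOfEquivOfLe (le_normalizer (H := A)))
  have hφ : ∀ a : ↥A, (φ a : G) = y * a * y⁻¹ := fun a => rfl
  have hφn : ∀ (n : ℕ) (a : ↥A), ((φ ^ n) a : G) = y ^ n * a * (y ^ n)⁻¹ := by
    intro n
    induction n with
    | zero => intro a; simp
    | succ n ih =>
      intro a
      have h1 : (φ ^ (n + 1)) a = φ ((φ ^ n) a) := by rw [pow_succ']; rfl
      rw [h1, hφ, ih, pow_succ']
      group
  have hfpf : MonoidHom.FixedPointFree (φ : ↥A →* ↥A) := by
    intro a ha
    have h1 : (φ a : G) = a := congrArg Subtype.val ha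
    rw [hφ] at h1
    exact Subtype.ext (hfix a a.2 h1)
  by_cases h1 : φ = 1
  · have h2 : ∀ a : ↥A, a = 1 := fun a => hfpf a (by rw [h1]; rfl)
    have : Subsingleton ↥A := ⟨fun a b => (h2 a).trans (h2 b).symm⟩
    infer_instance
  · have h2 : φ ^ s = 1 := by
      ext a
      rw [hφn, ← hy, pow_orderOf_eq_one]
      simp
    have h3 : orderOf φ = s := orderOf_eq_prime (hp := ⟨h.hs⟩) h2 h1
    exact Cfsg.Agent.S0033.result φ hfpf s h.hs h3

end Cfsg.Agent.H402.CS.One
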