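import Mathlib
import Cfsg.Agent.Lib.NilpotentCoprime
import Cfsg.Agent.H402.CS.One

/-!
# One perfect prime, continued (helper402, S3677)
-/

set_option autoImplicit false

namespace Cfsg.Agent.H402.CS.One

open Subgroup Cfsg Cfsg.Agent.H969.CS Cfsg.Agent.H363.Frat Cfsg.Agent.H363.Master

universe u

variable {G : Type u} [Group G] [Finite G] {s p m : ℕ}

theorem Perf.s_dvd_m (h : Perf G s p m) : s ∣ m := by
  obtain ⟨y, hy⟩ := h.exists_y
  rw [← h.cent y hy]
  have := dvd_card_of_mem (show y ∈ Cz y from mem_Cz.2 rfl)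
  rwa [hy] at this

theorem Perf.not_p_m (h : Perf G s p m) : ¬ p ∣ m := by
  obtain ⟨y, hy⟩ := h.exists_y
  intro h1
  rw [← h.cent y hy] at h1
  have := Fact.mk h.hp
  obtain ⟨v, hv⟩ := exists_prime_orderOf_dvd_card' p h1
  have h2 : Commute y (v : G) := (mem_Cz.1 v.2).symm
  have h3 := eq_one_of_commute h.hs h.hp h.hsp h.na ⟨1, by rw [hy, pow_one]⟩
    ⟨1, by rw [Subgroup.orderOf_coe, hv, pow_one]⟩ h2 (by
      intro h4
      have : v = 1 := Subtype.ext h4
      rw [this, orderOf_one] at hv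
      exact h.hp.one_lt.ne hv)
  rw [h3, orderOf_one] at hy
  exact h.hs.one_lt.ne hy

/-- **The theorem on one perfect prime.** -/
theorem Perf.not_dvd_core (h : Perf G s p m) (hOp : pCore p G = ⊥)
    (hOl : ∀ l : ℕ, l.Prime → l ∣ m → pCore l G = ⊥) (K : Subgroup G) [K.Normal] (hK : Group.IsSolvable ↥K)
    (hsK : ¬ s ∣ Nat.card ↥K) : ¬ p ∣ Nat.card ↥K := by
  intro hpK
  have hp := h.hp
  have hs := h.hs
  have := Fact.mk hp
  have := Fact.mk hs
  have h1 : s ^ 1 ∣ K.index := by
    rw [pow_one]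
    have h2 : s ∣ Nat.card ↥K * K.index := by rw [Subgroup.card_mul_index]; exact h.sG
    exact ((hs.dvd_mul).1 h2).resolve_left hsK
  obtain ⟨S, Q, hSK, hSp, hScard, hQ, hQd, hQS⟩ := exists_normalizing hs hp K h1
  rw [pow_one] at hQd
  obtain ⟨y0, hy0⟩ := exists_prime_orderOf_dvd_card' s hQd
  have hy : orderOf (y0 : G) = s := by rw [Subgroup.orderOf_coe, hy0]
  have hyS : (y0 : G) ∈ normalizer (S : Set G) := hQS y0.2
  -- `S` centralizes the Fitting subgroup
  have hcent : S ≤ centralizer (fittingSubgroup G : Set G) := by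
    rw [Subgroup.le_centralizer_iff, Cfsg.Agent.Lib.Cores.fittingSubgroup_eq_iSup_pCore, iSup_le_iff]
    intro l
    have hl := l.2
    have := Fact.mk hl
    by_cases hlm : (l : ℕ) ∣ m
    · rw [hOl l hl hlm]; exact bot_le
    by_cases hlp : (l : ℕ) = p
    · rw [hlp, hOp]; exact bot_le
    have hA : (pCore (l : ℕ) G).Normal := Cfsg.Agent.Lib.Cores.pCore_normal _
    have hApg : IsPGroup l ↥(pCore (l : ℕ) G) := Cfsg.Agent.Lib.Cores.pCore_isPGroup _
    set B : Subgroup G := pCore (l : ℕ) G ⊔ S with hB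
    obtain ⟨a, ha⟩ := IsPGroup.iff_card.1 hApg
    obtain ⟨b, hb⟩ := IsPGroup.iff_card.1 hSp
    have hcop : (Nat.card ↥B).Coprime m := by
      refine Nat.Coprime.coprime_dvd_left (Cfsg.Agent.Lib.Cores.card_sup_dvd _ _ hA) ?_
      rw [ha, hb]
      exact Nat.Coprime.mul_left (Nat.Coprime.pow_left _ ((Nat.Prime.coprime_iff_not_dvd hl).2 hlm))
        (Nat.Coprime.pow_left _ ((Nat.Prime.coprime_iff_not_dvd hp).2 h.not_p_m))
    have hyB : (y0 : G) ∈ normalizer (B : Set G) := by
      have h3 : ∀ g : G, g ∈ normalizer (S : Set G) → (B.map (MulAut.conj g).toMonoidHom) ≤ B := by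
        intro g hg
        rw [hB, Subgroup.map_sup]
        refine sup_le_sup ?_ ?_
        · rintro _ ⟨x, hx, rfl⟩
          exact hA.conj_mem x hx g
        · rintro _ ⟨x, hx, rfl⟩
          exact (mem_normalizer_iff.1 hg x).1 hx
      rw [mem_normalizer_iff]
      intro x
      constructor
      · intro hx
        exact h3 _ hyS ⟨x, hx, rfl⟩
      · intro hx
        have h4 := h3 (y0 : G)⁻¹ (inv_mem hyS) ⟨_, hx, rfl⟩
        have e : (MulAut.conj (y0 : G)⁻¹).toMonoidHom ((y0 : G) * x * (y0 : G)⁻¹) = x := by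
          show (y0 : G)⁻¹ * ((y0 : G) * x * (y0 : G)⁻¹) * ((y0 : G)⁻¹)⁻¹ = x
          group
        rwa [e] at h4
    have hnil := h.nilpotent_of hy B hyB hcop
    refine Cfsg.Agent.Lib.NilpotentCoprime.le_centralizer_of_coprime (N := B) hnil le_sup_left le_sup_right ?_
    rw [ha, hb]
    exact Nat.Coprime.pow _ _ ((Nat.coprime_primes hl hp).2 hlp)
  -- the solvable subgroup
  have hKn : K.Normal := inferInstance
  have hCn : (centralizer (fittingSubgroup G : Set G)).Normal := by
    have := Cfsg.Agent.Lib.Cores.fittingSubgroup_normal (G := G)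
    infer_instance
  have hNn : (K ⊓ centralizer (fittingSubgroup G : Set G)).Normal := inferInstance
  have hNs : Group.IsSolvable ↥(K ⊓ centralizer (fittingSubgroup G : Set G)) :=
    Group.isSolvable_of_isSolvable_injective (f := Subgroup.inclusion inf_le_left) (Subgroup.inclusion_injective _)
  have h2 := Cfsg.Agent.S1264.result (K ⊓ centralizer (fittingSubgroup G : Set G)) inf_le_right
    (by rw [normalizer_eq_top_iff.2 hNn]; exact le_top) hNs
  have h3 : S ≤ fittingSubgroup G := by
    intro x hx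
    obtain ⟨z, _, rfl⟩ := h2 ⟨hSK hx, hcent hx⟩
    exact z.2
  have h4 : S ≤ pCore p G := by
    -- in the nilpotent Fitting subgroup the `p`-part is normal
    have hFn : (fittingSubgroup G).Normal := Cfsg.Agent.Lib.Cores.fittingSubgroup_normal
    have hnil : Group.IsNilpotent ↥(fittingSubgroup G) := Cfsg.Agent.Lib.Cores.fittingSubgroup_isNilpotent
    obtain ⟨P, hP⟩ := (hSp.comap_of_injective (fittingSubgroup G).subtype (fittingSubgroup G).subtype_injective).exists_le_sylow
    have hPn : P.Normal := inferInstance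
    have hPc : (P : Subgroup ↥(fittingSubgroup G)).Characteristic := Sylow.characteristic_of_normal P inferInstance
    have h5 : (P : Subgroup ↥(fittingSubgroup G)).map (fittingSubgroup G).subtype ≤ pCore p G :=
      Cfsg.Agent.Lib.Cores.le_pCore inferInstance (P.isPGroup'.map _)
    intro x hx
    exact h5 ⟨⟨x, h3 hx⟩, hP hx, rfl⟩
  rw [hOp, le_bot_iff] at h4
  rw [h4, Subgroup.card_bot] at hScard
  have h5 := hp.factorization_pos_of_dvd Nat.card_pos.ne' hpK
  have h6 := Nat.one_lt_pow h5.ne' hp.one_lt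
  omega

end Cfsg.Agent.H402.CS.One
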