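import Mathlib
import Cfsg.Agent.H402.CS.OneB

/-!
# One perfect prime: the cores (helper402, S3677)
-/

set_option autoImplicit false

namespace Cfsg.Agent.H402.CS.One

open Subgroup Cfsg Cfsg.Agent.H969.CS Cfsg.Agent.H363.Frat Cfsg.Agent.H363.Master

universe u

variable {G : Type u} [Group G] [Finite G] {s p m : ℕ}

/-- the class of a nontrivial element of a normal subgroup -/
theorem index_lt_of_mem {N : Subgroup G} (hN : N.Normal) {x : G} (hx : x ∈ N) (hx1 : x ≠ 1) :
    (Cz x).index < Nat.card ↥N := by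
  have hf : ∀ a b : G, QuotientGroup.leftRel (Cz x) a b → a * x * a⁻¹ = b * x * b⁻¹ := by
    intro a b hab
    rw [QuotientGroup.leftRel_apply, mem_Cz] at hab
    calc a * x * a⁻¹ = a * (x * (a⁻¹ * b)) * b⁻¹ := by group
      _ = a * (a⁻¹ * b * x) * b⁻¹ := by rw [hab]
      _ = b * x * b⁻¹ := by group
  let f : G ⧸ Cz x → ↥N := Quotient.lift (fun a => (⟨a * x * a⁻¹, hN.conj_mem x hx a⟩ : ↥N))
    (fun a b hab => Subtype.ext (hf a b hab))
  have hinj : Function.Injective f := by
    intro a b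
    obtain ⟨a, rfl⟩ := QuotientGroup.mk_surjective a
    obtain ⟨b, rfl⟩ := QuotientGroup.mk_surjective b
    intro hab
    have h1 : a * x * a⁻¹ = b * x * b⁻¹ := congrArg Subtype.val hab
    rw [QuotientGroup.eq, mem_Cz]
    calc a⁻¹ * b * x = a⁻¹ * (b * x * b⁻¹) * b := by group
      _ = a⁻¹ * (a * x * a⁻¹) * b := by rw [h1]
      _ = x * (a⁻¹ * b) := by group
  have hne : ∀ q, f q ≠ 1 := by
    intro q
    obtain ⟨a, rfl⟩ := QuotientGroup.mk_surjective q
    intro h
    have h1 : a * x * a⁻¹ = 1 := congrArg Subtype.val h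
    apply hx1
    have : x = a⁻¹ * (a * x * a⁻¹) * a := by group
    rw [this, h1]; group
  let g : Option (G ⧸ Cz x) → ↥N := fun o => o.elim 1 f
  have hg : Function.Injective g := by
    intro a b hab
    cases a with
    | none =>
      cases b with
      | none => rfl
      | some b => exact absurd hab.symm (hne b)
    | some a =>
      cases b with
      | none => exact absurd hab (hne a)
      | some b => exact congrArg some (hinj hab)
  have h1 := Nat.card_le_card_of_injective g hg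
  rw [Finite.card_option] at h1
  rw [Subgroup.index_eq_card]
  omega

/-- **The theorem on one perfect prime**, for a prime `t` not dividing `m`. -/
theorem Perf.not_dvd_of (h : Perf G s p m) {t : ℕ} (ht : t.Prime) (htm : ¬ t ∣ m) (hOt : pCore t G = ⊥)
    (hOl : ∀ l : ℕ, l.Prime → l ∣ m → pCore l G = ⊥) (K : Subgroup G) [K.Normal] (hK : Group.IsSolvable ↥K)
    (hsK : ¬ s ∣ Nat.card ↥K) : ¬ t ∣ Nat.card ↥K := by
  intro htK
  have hs := h.hs
  have := Fact.mk ht
  have := Fact.mk hs
  have h1 : s ^ 1 ∣ K.index := by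
    rw [pow_one]
    have h2 : s ∣ Nat.card ↥K * K.index := by rw [Subgroup.card_mul_index]; exact h.sG
    exact ((hs.dvd_mul).1 h2).resolve_left hsK
  obtain ⟨S, Q, hSK, hSp, hScard, hQ, hQd, hQS⟩ := exists_normalizing hs ht K h1
  rw [pow_one] at hQd
  obtain ⟨y0, hy0⟩ := exists_prime_orderOf_dvd_card' s hQd
  have hy : orderOf (y0 : G) = s := by rw [Subgroup.orderOf_coe, hy0]
  have hyS : (y0 : G) ∈ normalizer (S : Set G) := hQS y0.2
  -- `S` centralizes the Fitting subgroup
  have hcent : S ≤ centralizer (fittingSubgroup G : Set G) := by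
    rw [Subgroup.le_centralizer_iff, Cfsg.Agent.Lib.Cores.fittingSubgroup_eq_iSup_pCore, iSup_le_iff]
    intro l
    have hl := l.2
    have := Fact.mk hl
    by_cases hlm : (l : ℕ) ∣ m
    · rw [hOl l hl hlm]; exact bot_le
    by_cases hlt : (l : ℕ) = t
    · rw [hlt, hOt]; exact bot_le
    have hA : (pCore (l : ℕ) G).Normal := Cfsg.Agent.Lib.Cores.pCore_normal _
    have hApg : IsPGroup l ↥(pCore (l : ℕ) G) := Cfsg.Agent.Lib.Cores.pCore_isPGroup _
    set B : Subgroup G := pCore (l : ℕ) G ⊔ S with hB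
    obtain ⟨a, ha⟩ := IsPGroup.iff_card.1 hApg
    obtain ⟨b, hb⟩ := IsPGroup.iff_card.1 hSp
    have hcop : (Nat.card ↥B).Coprime m := by
      refine Nat.Coprime.coprime_dvd_left (Cfsg.Agent.Lib.Cores.card_sup_dvd _ _ hA) ?_
      rw [ha, hb]
      exact Nat.Coprime.mul_left (Nat.Coprime.pow_left _ ((Nat.Prime.coprime_iff_not_dvd hl).2 hlm))
        (Nat.Coprime.pow_left _ ((Nat.Prime.coprime_iff_not_dvd ht).2 htm))
    have hyB : (y0 : G) ∈ normalizer (B : Set G) := by
      have h3 : ∀ g : G, g ∈ normalizer (S : Set G) → (B.map (MulAut.conj g).toMonoidHom) ≤ B := by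
        intro g hg
        rw [hB, Subgroup.map_sup]
        refine sup_le_sup ?_ ?_
        · rintro _ ⟨x, hx, rfl⟩
          exact hA.conj_mem x hx g
        · rintro _ ⟨x, hx, rfl⟩
          exact (mem_normalizer_iff.1 hg x).1 hx
      rw [mem_normalizer_iff]
      intro x
      constructor
      · intro hx
        exact h3 _ hyS ⟨x, hx, rfl⟩
      · intro hx
        have h4 := h3 (y0 : G)⁻¹ (inv_mem hyS) ⟨_, hx, rfl⟩
        have e : (MulAut.conj (y0 : G)⁻¹).toMonoidHom ((y0 : G) * x * (y0 : G)⁻¹) = x := by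
          show (y0 : G)⁻¹ * ((y0 : G) * x * (y0 : G)⁻¹) * ((y0 : G)⁻¹)⁻¹ = x
          group
        rwa [e] at h4
    have hnil := h.nilpotent_of hy B hyB hcop
    refine Cfsg.Agent.Lib.NilpotentCoprime.le_centralizer_of_coprime (N := B) hnil le_sup_left le_sup_right ?_
    rw [ha, hb]
    exact Nat.Coprime.pow _ _ ((Nat.coprime_primes hl ht).2 hlt)
  -- the solvable subgroup
  have hKn : K.Normal := inferInstance
  have hCn : (centralizer (fittingSubgroup G : Set G)).Normal := by
    have := Cfsg.Agent.Lib.Cores.fittingSubgroup_normal (G := G)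
    infer_instance
  have hNn : (K ⊓ centralizer (fittingSubgroup G : Set G)).Normal := inferInstance
  have hNs : Group.IsSolvable ↥(K ⊓ centralizer (fittingSubgroup G : Set G)) :=
    Group.isSolvable_of_isSolvable_injective (f := Subgroup.inclusion inf_le_left) (Subgroup.inclusion_injective _)
  have h2 := Cfsg.Agent.S1264.result (K ⊓ centralizer (fittingSubgroup G : Set G)) inf_le_right
    (by rw [normalizer_eq_top_iff.2 hNn]; exact le_top) hNs
  have h3 : S ≤ fittingSubgroup G := by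
    intro x hx
    obtain ⟨z, _, rfl⟩ := h2 ⟨hSK hx, hcent hx⟩
    exact z.2
  have h4 : S ≤ pCore t G := by
    have hFn : (fittingSubgroup G).Normal := Cfsg.Agent.Lib.Cores.fittingSubgroup_normal
    have hnil : Group.IsNilpotent ↥(fittingSubgroup G) := Cfsg.Agent.Lib.Cores.fittingSubgroup_isNilpotent
    obtain ⟨P, hP⟩ := (hSp.comap_of_injective (fittingSubgroup G).subtype (fittingSubgroup G).subtype_injective).exists_le_sylow
    have hPn : P.Normal := inferInstance
    have hPc : (P : Subgroup ↥(fittingSubgroup G)).Characteristic := Sylow.characteristic_of_normal P inferInstance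
    have h5 : (P : Subgroup ↥(fittingSubgroup G)).map (fittingSubgroup G).subtype ≤ pCore t G :=
      Cfsg.Agent.Lib.Cores.le_pCore inferInstance (P.isPGroup'.map _)
    intro x hx
    exact h5 ⟨⟨x, h3 hx⟩, hP hx, rfl⟩
  rw [hOt, le_bot_iff] at h4
  rw [h4, Subgroup.card_bot] at hScard
  have h5 := ht.factorization_pos_of_dvd Nat.card_pos.ne' htK
  have h6 := Nat.one_lt_pow h5.ne' ht.one_lt
  omega

/-- a solvable normal subgroup is trivial if all the cores are -/
theorem eq_bot_of_cores (hO : ∀ l : ℕ, l.Prime → pCore l G = ⊥) (K : Subgroup G) [K.Normal]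
    (hK : Group.IsSolvable ↥K) : K = ⊥ := by
  have hF : fittingSubgroup G = ⊥ := by
    rw [Cfsg.Agent.Lib.Cores.fittingSubgroup_eq_iSup_pCore, eq_bot_iff, iSup_le_iff]
    intro l
    rw [hO l l.2]
  have hKn : K.Normal := inferInstance
  have hc : K ≤ centralizer (fittingSubgroup G : Set G) := by
    rw [hF, Subgroup.coe_bot]
    intro x _
    rw [Subgroup.mem_centralizer_iff]
    intro y hy
    rw [Set.mem_singleton_iff.1 hy, one_mul, mul_one]
  have h2 := Cfsg.Agent.S1264.result K hc (by rw [normalizer_eq_top_iff.2 hKn]; exact le_top) hK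
  rw [eq_bot_iff, ← hF]
  intro x hx
  obtain ⟨z, _, rfl⟩ := h2 hx
  exact z.2

/-- a core is trivial if its order would be at most the least class size -/
theorem pCore_eq_bot_of_index {l : ℕ} (hl : l.Prime) (hZ : center G = ⊥)
    (h : ∀ c ∈ CO G, c ≠ Nat.card G → l ^ (Nat.card G).factorization l * c ≤ Nat.card G) : pCore l G = ⊥ := by
  have := Fact.mk hl
  by_contra hne
  have hA : (pCore l G).Normal := Cfsg.Agent.Lib.Cores.pCore_normal _
  have hApg : IsPGroup l ↥(pCore l G) := Cfsg.Agent.Lib.Cores.pCore_isPGroup _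
  obtain ⟨x0, hx0⟩ := Subgroup.ne_bot_iff_exists_ne_one.1 hne
  obtain ⟨x, hx, hx1⟩ : ∃ x ∈ pCore l G, x ≠ 1 := ⟨(x0 : G), x0.2, fun h => hx0 (Subtype.ext h)⟩
  have h1 := index_lt_of_mem hA hx hx1
  have h2 : Nat.card ↥(Cz x) ≠ Nat.card G := by
    intro h3
    have h4 : Cz x = ⊤ := Subgroup.eq_top_of_card_eq _ h3
    apply hx1
    rw [← Subgroup.mem_bot, ← hZ, Subgroup.mem_center_iff]
    intro g
    exact mem_Cz.1 (h4 ▸ Subgroup.mem_top g)
  have h3 := h _ (mem_CO x) h2
  obtain ⟨a, ha⟩ := IsPGroup.iff_card.1 hApg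
  have h4 : Nat.card ↥(pCore l G) ≤ l ^ (Nat.card G).factorization l := by
    rw [ha]
    refine Nat.pow_le_pow_right hl.pos ?_
    rw [← hl.pow_dvd_iff_le_factorization Nat.card_pos.ne', ← ha]
    exact Subgroup.card_subgroup_dvd_card _
  have h5 := Subgroup.card_mul_index (Cz x)
  have h6 : 0 < Nat.card ↥(Cz x) := Nat.card_pos
  have h7 : (Cz x).index * Nat.card ↥(Cz x) < l ^ (Nat.card G).factorization l * Nat.card ↥(Cz x) :=
    Nat.mul_lt_mul_of_pos_right (h1.trans_le h4) h6
  rw [mul_comm, h5] at h7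
  omega

/-- the centre is trivial if no prime divides all centralizer orders -/
theorem center_eq_bot (h : ∀ l : ℕ, l.Prime → ∃ c ∈ CO G, ¬ l ∣ c) : center G = ⊥ := by
  by_contra hne
  have h1 : Nat.card ↥(center G) ≠ 1 := fun h2 => hne (Subgroup.card_eq_one.1 h2)
  obtain ⟨l, hl, hd⟩ := Nat.exists_prime_and_dvd h1
  obtain ⟨c, ⟨g, rfl⟩, hc⟩ := h l hl
  exact hc (hd.trans (Subgroup.card_dvd_of_le (by
    intro z hz
    rw [mem_Cz]
    exact (Subgroup.mem_center_iff.1 hz g).symm)))

/-- **`O_p(G) = 1`** if `s`- and `r`-elements act without fixed points on the abelian normal `p`-subgroups and the least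
common multiple of the orders of `p` modulo `r` and `s` is large. -/
theorem pCore_eq_bot_of_fpf {r a b : ℕ} (hp : p.Prime) (hs : s.Prime) (hr : r.Prime)
    (hsG : s ∣ Nat.card G) (hrG : r ∣ Nat.card G)
    (hfs : ∀ V : Subgroup G, V.Normal → IsPGroup p ↥V → (∀ x ∈ V, ∀ y ∈ V, x * y = y * x) →
      ∀ y : G, orderOf y = s → ∀ x ∈ V, x * y = y * x → x = 1)
    (hfr : ∀ V : Subgroup G, V.Normal → IsPGroup p ↥V → (∀ x ∈ V, ∀ y ∈ V, x * y = y * x) →
      ∀ y : G, orderOf y = r → ∀ x ∈ V, x * y = y * x → x = 1)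
    (ha : ∀ j, r ∣ p ^ j - 1 → a ∣ j) (hb : ∀ j, s ∣ p ^ j - 1 → b ∣ j)
    (hlcm : (Nat.card G).factorization p < Nat.lcm a b) : pCore p G = ⊥ := by
  have := Fact.mk hp
  have hA : (pCore p G).Normal := Cfsg.Agent.Lib.Cores.pCore_normal _
  have hApg : IsPGroup p ↥(pCore p G) := Cfsg.Agent.Lib.Cores.pCore_isPGroup _
  by_contra hne
  set V : Subgroup G := (center ↥(pCore p G)).map (pCore p G).subtype with hV
  have hVn : V.Normal := inferInstance
  have hVp : IsPGroup p ↥V := (hApg.to_subgroup _).map _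
  have hVc : ∀ x ∈ V, ∀ y ∈ V, x * y = y * x := by
    rintro _ ⟨x, hx, rfl⟩ _ ⟨y, _, rfl⟩
    exact congrArg Subtype.val (Subgroup.mem_center_iff.1 hx y).symm
  have hV1 : V ≠ ⊥ := by
    intro h
    have h1 : center ↥(pCore p G) = ⊥ := by
      rw [hV, Subgroup.map_eq_bot_iff_of_injective _ (pCore p G).subtype_injective] at h
      exact h
    have hnt : Nontrivial ↥(pCore p G) := (Subgroup.nontrivial_iff_ne_bot _).2 hne
    exact (ne_of_gt (hApg.bot_lt_center)) h1
  obtain ⟨j, hj⟩ := IsPGroup.iff_card.1 hVp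
  have hj0 : j ≠ 0 := by
    rintro rfl
    rw [pow_zero] at hj
    exact hV1 (Subgroup.card_eq_one.1 hj)
  have key : ∀ t : ℕ, t.Prime → t ∣ Nat.card G →
      (∀ y : G, orderOf y = t → ∀ x ∈ V, x * y = y * x → x = 1) → t ∣ p ^ j - 1 := by
    intro t ht htG hf
    have := Fact.mk ht
    obtain ⟨y, hy⟩ := exists_prime_orderOf_dvd_card' t htG
    -- the group generated by `y` acts on `V`
    have h1 : IsPGroup t ↥(Subgroup.zpowers y) := IsPGroup.of_card (by
      rw [Nat.card_zpowers, hy, pow_one])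
    let inst : MulAction ↥(Subgroup.zpowers y) ↥V :=
      { smul := fun g v => ⟨(g : G) * v * (g : G)⁻¹, hVn.conj_mem v v.2 g⟩
        one_smul := fun v => Subtype.ext (by
          show ((1 : ↥(Subgroup.zpowers y)) : G) * (v : G) * ((1 : ↥(Subgroup.zpowers y)) : G)⁻¹ = v
          simp)
        mul_smul := fun g k v => Subtype.ext (by
          show ((g * k : ↥(Subgroup.zpowers y)) : G) * (v : G) * ((g * k : ↥(Subgroup.zpowers y)) : G)⁻¹ =
            (g : G) * ((k : G) * v * (k : G)⁻¹) * (g : G)⁻¹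
          rw [Subgroup.coe_mul]; group) }
    have h2 := h1.card_modEq_card_fixedPoints (α := ↥V)
    have h3 : MulAction.fixedPoints ↥(Subgroup.zpowers y) ↥V = {1} := by
      ext v
      constructor
      · intro hv
        have h4 : (y : G) * v * (y : G)⁻¹ = v := congrArg Subtype.val (hv ⟨y, Subgroup.mem_zpowers y⟩)
        have h5 := hf y hy v v.2 (by
          calc (v : G) * y = (y * v * y⁻¹) * y := by rw [h4]
            _ = y * v := by group)
        exact Subtype.ext h5
      · rintro rfl g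
        apply Subtype.ext
        show (g : G) * (1 : G) * (g : G)⁻¹ = 1
        group
    have h4 : Nat.card ↑({1} : Set ↥V) = 1 := by simp
    rw [h3, h4, hj] at h2
    exact (Nat.modEq_iff_dvd' (Nat.one_le_pow _ _ hp.pos)).1 h2.symm
  have h1 := ha j (key r hr hrG (hfr V hVn hVp hVc))
  have h2 := hb j (key s hs hsG (hfs V hVn hVp hVc))
  have h3 := Nat.le_of_dvd (Nat.pos_of_ne_zero hj0) (Nat.lcm_dvd h1 h2)
  have h4 : j ≤ (Nat.card G).factorization p := by
    rw [← hp.pow_dvd_iff_le_factorization Nat.card_pos.ne', ← hj]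
    exact Subgroup.card_subgroup_dvd_card _
  omega

/-- fixed-point-freeness from non-adjacency -/
theorem fpf_of_nonAdj {t : ℕ} (ht : t.Prime) (hp : p.Prime) (htp : t ≠ p) (hna : NonAdj G t p) (V : Subgroup G)
    (hV : IsPGroup p ↥V) {y : G} (hy : orderOf y = t) {x : G} (hx : x ∈ V) (hxy : x * y = y * x) : x = 1 := by
  have := Fact.mk hp
  by_contra hx1
  obtain ⟨k, hk⟩ := (IsPGroup.iff_orderOf.1 hV) ⟨x, hx⟩
  rw [Subgroup.orderOf_mk] at hk
  have h3 := eq_one_of_commute ht hp htp hna ⟨1, by rw [hy, pow_one]⟩ ⟨k, hk⟩ hxy.symm hx1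
  rw [h3, orderOf_one] at hy
  exact ht.one_lt.ne hy

/-- fixed-point-freeness from the size of the centralizers -/
theorem fpf_of_size {t : ℕ} (hp : p.Prime) (hZ : center G = ⊥)
    (hsize : ∀ c ∈ CO G, c ≠ Nat.card G → t ∣ c → c * p ^ c.factorization p < Nat.card G) (V : Subgroup G)
    (hVn : V.Normal) (hV : IsPGroup p ↥V) (hVc : ∀ x ∈ V, ∀ y ∈ V, x * y = y * x) {y : G} (hy : orderOf y = t)
    {x : G} (hx : x ∈ V) (hxy : x * y = y * x) : x = 1 := by
  have := Fact.mk hp
  by_contra hx1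
  have h1 := index_lt_of_mem hVn hx hx1
  have h2 : Nat.card ↥(Cz x) ≠ Nat.card G := by
    intro h3
    have h4 : Cz x = ⊤ := Subgroup.eq_top_of_card_eq _ h3
    apply hx1
    rw [← Subgroup.mem_bot, ← hZ, Subgroup.mem_center_iff]
    intro g
    exact mem_Cz.1 (h4 ▸ Subgroup.mem_top g)
  have h3 : t ∣ Nat.card ↥(Cz x) := by
    have h4 := dvd_card_of_mem (show y ∈ Cz x from mem_Cz.2 hxy.symm)
    rwa [hy] at h4
  have h4 := hsize _ (mem_CO x) h2 h3
  obtain ⟨j, hj⟩ := IsPGroup.iff_card.1 hV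
  have h5 : V ≤ Cz x := fun v hv => mem_Cz.2 (hVc v hv x hx)
  have h6 : Nat.card ↥V ≤ p ^ (Nat.card ↥(Cz x)).factorization p := by
    rw [hj]
    refine Nat.pow_le_pow_right hp.pos ?_
    rw [← hp.pow_dvd_iff_le_factorization Nat.card_pos.ne', ← hj]
    exact Subgroup.card_dvd_of_le h5
  have h7 := Subgroup.card_mul_index (Cz x)
  have h8 : Nat.card ↥(Cz x) * (Cz x).index < Nat.card ↥(Cz x) * p ^ (Nat.card ↥(Cz x)).factorization p :=
    Nat.mul_lt_mul_of_pos_left (h1.trans_le h6) Nat.card_pos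
  omega

end Cfsg.Agent.H402.CS.One
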