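import Mathlib
import Cfsg.Agent.Lib.MinNormal
import Cfsg.Agent.H934.OutB
import Cfsg.Agent.H402.CS.OneB

/-!
# One perfect prime: the simple section (helper402, S3677)
-/

set_option autoImplicit false

namespace Cfsg.Agent.H402.CS.One

open Subgroup Cfsg Cfsg.Agent.H969.CS Cfsg.Agent.H363.Frat Cfsg.Agent.H363.Master

universe u

theorem exists_minimal_normal_le {G : Type*} [Group G] [Finite G] (C : Subgroup G) (hCn : C.Normal) (hC : C ≠ ⊥) :
    ∃ N : Subgroup G, N.Normal ∧ N ≤ C ∧ N ≠ ⊥ ∧ ∀ M : Subgroup G, M.Normal → M ≤ N → M = ⊥ ∨ M = N := by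
  obtain ⟨N, hN⟩ := (Set.toFinite {N : Subgroup G | N.Normal ∧ N ≤ C ∧ N ≠ ⊥}).exists_minimal
    ⟨C, hCn, le_rfl, hC⟩
  refine ⟨N, hN.1.1, hN.1.2.1, hN.1.2.2, fun M hM hMN => ?_⟩
  by_cases h : M = ⊥
  · exact Or.inl h
  · exact Or.inr (le_antisymm hMN (hN.2 ⟨hM, hMN.trans hN.1.2.1, h⟩ hMN))

/-- a minimal normal subgroup of order divisible by the non-adjacent primes `s`, `p` is simple -/
theorem simple_of_minimal {G : Type u} [Group G] [Finite G] {s p : ℕ} (hs : s.Prime) (hp : p.Prime) (hsp : s ≠ p)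
    (hna : NonAdj G s p) (N : Subgroup G) [N.Normal] (hN : N ≠ ⊥)
    (hmin : ∀ M : Subgroup G, M.Normal → M ≤ N → M = ⊥ ∨ M = N) (hsN : s ∣ Nat.card ↥N) (hpN : p ∣ Nat.card ↥N) :
    IsSimpleGroup ↥N ∧ ¬ ∀ a b : ↥N, a * b = b * a := by
  have hN0 : Nat.card ↥N ≠ 0 := Nat.card_pos.ne'
  obtain ⟨T, k, _, hT, hm, ⟨e⟩⟩ := Cfsg.Agent.Lib.MinNormal.exists_mulEquiv_pi N hN hmin
  have hcard : Nat.card ↥N = Nat.card T ^ k := by
    rw [Nat.card_congr e.toEquiv, Nat.card_fun]
    simp
  have hTf : Finite T := by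
    have hc : Nat.card T ≠ 0 := by
      intro h0
      rw [h0, zero_pow (by omega)] at hcard
      exact hN0 hcard
    exact Nat.finite_of_card_ne_zero hc
  have hdT : ∀ t, t.Prime → t ∣ Nat.card ↥N → t ∣ Nat.card T := by
    intro t ht h
    rw [hcard] at h
    exact ht.dvd_of_dvd_pow h
  have hpT := hdT p hp hpN
  have hsT := hdT s hs hsN
  have hnab : ¬ ∀ a b : ↥N, a * b = b * a := by
    intro hab
    have hcomm0 : ∀ a b : T, a * b = b * a := by
      intro a b
      have h4 := hab (e.symm (fun _ => a)) (e.symm (fun _ => b))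
      rw [← map_mul, ← map_mul] at h4
      exact congrFun (e.symm.injective h4) ⟨0, by omega⟩
    have hprime : (Nat.card T).Prime := by
      let : CommGroup T := { (inferInstance : Group T) with mul_comm := hcomm0 }
      exact IsSimpleGroup.prime_card
    have hpT' := (Nat.prime_dvd_prime_iff_eq hp hprime).mp hpT
    exact hsp (((Nat.prime_dvd_prime_iff_eq hs hprime).mp hsT).trans hpT'.symm)
  have hm1 : k = 1 := by
    by_contra hm1
    have : Fact p.Prime := ⟨hp⟩
    have : Fact s.Prime := ⟨hs⟩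
    obtain ⟨a, ha⟩ := exists_prime_orderOf_dvd_card' s hsT
    obtain ⟨b, hb⟩ := exists_prime_orderOf_dvd_card' p hpT
    have h01 : (⟨0, by omega⟩ : Fin k) ≠ ⟨1, by omega⟩ := by
      intro h; exact absurd (congrArg Fin.val h) (by norm_num)
    have hnN : NonAdj ↥N s p := hna.subgroup N
    have hc : Commute (e.symm (Pi.mulSingle ⟨0, by omega⟩ a)) (e.symm (Pi.mulSingle ⟨1, by omega⟩ b)) :=
      (Pi.mulSingle_commute (f := fun _ : Fin k => T) h01 a b).map e.symm
    have ho : ∀ (i : Fin k) (x : T), orderOf (e.symm (Pi.mulSingle i x)) = orderOf x := by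
      intro i x
      rw [MulEquiv.orderOf_eq]
      exact orderOf_injective (MonoidHom.mulSingle (fun _ : Fin k => T) i)
        (fun x y hxy => Pi.mulSingle_injective (M := fun _ : Fin k => T) i hxy) x
    have h4 := eq_one_of_commute hs hp hsp hnN ⟨1, by rw [ho, pow_one, ha]⟩ ⟨1, by rw [ho, pow_one, hb]⟩ hc
      (by
        intro h5
        have := ho ⟨1, by omega⟩ b
        rw [h5, orderOf_one, hb] at this
        exact hp.one_lt.ne this)
    have := ho ⟨0, by omega⟩ a
    rw [h4, orderOf_one, ha] at this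
    exact hs.one_lt.ne this
  subst hm1
  have := hT
  exact ⟨(e.trans (MulEquiv.funUnique (Fin 1) T)).isSimpleGroup, hnab⟩

/-- a normal nonabelian simple subgroup with trivial centralizer has index dividing `|Out|` -/
theorem index_dvd_out {Γ : Type u} [Group Γ] [Finite Γ] (H : Subgroup Γ) [H.Normal] [IsSimpleGroup H]
    (hna : ¬ ∀ x y : H, x * y = y * x) (hc : centralizer (H : Set Γ) = ⊥) : H.index ∣ Nat.card (Cfsg.Out H) := by
  have hinj : Function.Injective (MulAut.conjNormal : Γ →* MulAut H) := by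
    rw [injective_iff_map_eq_one]
    intro g hg
    have h1 : g ∈ centralizer (H : Set Γ) := by
      rw [Subgroup.mem_centralizer_iff]
      intro x hx
      have h2 : (MulAut.conjNormal g : MulAut H) ⟨x, hx⟩ = ⟨x, hx⟩ := by rw [hg]; rfl
      have h3 : g * x * g⁻¹ = x := by
        have := congrArg Subtype.val h2
        rwa [MulAut.conjNormal_apply] at this
      exact (mul_inv_eq_iff_eq_mul.1 h3).symm
    rwa [hc, Subgroup.mem_bot] at h1
  have hna' : ¬ IsMulCommutative H := fun h => hna fun a b => h.is_comm.comm a b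
  have h1 := Cfsg.Agent.H934.OutB.card_out_mul H hna'
  have : Finite (MulAut H) := Finite.of_injective (fun f : MulAut H => (f : H → H)) DFunLike.coe_injective
  have h2 : Nat.card Γ ∣ Nat.card (MulAut H) := by
    rw [Nat.card_congr (MonoidHom.ofInjective hinj).toEquiv]
    exact Subgroup.card_subgroup_dvd_card _
  rw [← h1, ← Subgroup.card_mul_index H, mul_comm] at h2
  exact Nat.dvd_of_mul_dvd_mul_right Nat.card_pos h2

/-- the data of the section -/
structure Sec (G : Type u) [Group G] [Finite G] (s p : ℕ) (K : Subgroup G) [K.Normal] (N : Subgroup (G ⧸ K)) :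
    Prop where
  normal : N.Normal
  simple : IsSimpleGroup ↥N
  nab : ¬ ∀ a b : ↥N, a * b = b * a
  pK : ¬ p ∣ Nat.card ↥K
  sK : ¬ s ∣ Nat.card ↥K
  pN : p ∣ Nat.card ↥N
  sN : s ∣ Nat.card ↥N
  cent : centralizer (N : Set (G ⧸ K)) = ⊥

variable {G : Type u} [Group G] [Finite G] {s p m : ℕ}

/-- **The simple section.** -/
theorem Perf.exists_sec (h : Perf G s p m) (hpG : p ∣ Nat.card G)
    (hle : s ^ (Nat.card G).factorization s ≤ p ^ (Nat.card G).factorization p)
    (hcore : ∀ K : Subgroup G, K.Normal → ¬ s ∣ Nat.card ↥K → ¬ p ∣ Nat.card ↥K) :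
    ∃ (K : Subgroup G) (_ : K.Normal) (N : Subgroup (G ⧸ K)), Sec G s p K N := by
  have hs := h.hs
  have hp := h.hp
  obtain ⟨K, hKn, hKc, hKm⟩ := exists_core G p
  have hpK : ¬ p ∣ Nat.card ↥K := by
    rwa [Nat.coprime_comm, Nat.Prime.coprime_iff_not_dvd hp] at hKc
  have hsK := not_dvd_of_core hp hs h.hsp h.na hpK hle
  have hpQ := dvd_quotient hp hpK hpG
  have hna' := h.na.quotient K
  -- normal subgroups of `G ⧸ K`
  have hmins : ∀ N : Subgroup (G ⧸ K), N.Normal → N ≠ ⊥ → p ∣ Nat.card ↥N ∧ s ∣ Nat.card ↥N := by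
    intro N hNn hN
    have h1 : p ∣ Nat.card ↥N := by
      by_contra hcon
      apply hN
      apply core_quotient hKc hKm N hNn
      rw [Nat.coprime_comm, Nat.Prime.coprime_iff_not_dvd hp]
      exact hcon
    refine ⟨h1, ?_⟩
    by_contra hcon
    have h2 : Nat.card ↥(N.comap (QuotientGroup.mk' K)) = Nat.card ↥K * Nat.card ↥N := by
      have h2 := Subgroup.card_mul_index (N.comap (QuotientGroup.mk' K))
      have h3 := Subgroup.card_mul_index N
      have h4 := Subgroup.card_mul_index K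
      rw [Subgroup.index_comap_of_surjective _ (QuotientGroup.mk'_surjective K)] at h2
      rw [Subgroup.index_eq_card K, ← h3] at h4
      have h5 : N.index ≠ 0 := Subgroup.index_ne_zero_of_finite
      apply Nat.eq_of_mul_eq_mul_right (Nat.pos_of_ne_zero h5)
      rw [h2, ← h4]; ring
    have h3 := hcore (N.comap (QuotientGroup.mk' K)) (hNn.comap _) (by
      rw [h2]
      intro h5
      rcases (hs.dvd_mul).1 h5 with h6 | h6
      · exact hsK h6
      · exact hcon h6)
    apply h3
    rw [h2]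
    exact h1.mul_left _
  have hnt : Nontrivial (G ⧸ K) := by
    rw [← Finite.one_lt_card_iff_nontrivial]
    exact lt_of_lt_of_le hp.one_lt (Nat.le_of_dvd Nat.card_pos hpQ)
  obtain ⟨N, hNn, hN, hmin⟩ := exists_minimal_normal (G ⧸ K)
  obtain ⟨hpN, hsN⟩ := hmins N hNn hN
  obtain ⟨h1, h2⟩ := simple_of_minimal hs hp h.hsp hna' N hN hmin hsN hpN
  refine ⟨K, hKn, N, hNn, h1, h2, hpK, hsK, hpN, hsN, ?_⟩
  by_contra hC
  obtain ⟨N', hN'n, hN'C, hN'1, -⟩ := exists_minimal_normal_le (centralizer (N : Set (G ⧸ K))) inferInstance hC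
  obtain ⟨hpN', -⟩ := hmins N' hN'n hN'1
  exact false_of_subgroups hs hp h.hsp hna' (A := N) (B := N')
    (fun a ha b hb => (Subgroup.mem_centralizer_iff.1 (hN'C hb) a ha)) hsN hpN'

end Cfsg.Agent.H402.CS.One
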