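import Mathlib
import Cfsg.Agent.H431.CS.Defs
import Cfsg.Agent.H402.CS.OneC
import Cfsg.Agent.H402.CS.Sect

/-!
# One perfect prime: the theorem on the simple section (helper402, S3677)
-/

set_option autoImplicit false

namespace Cfsg.Agent.H402.CS.One

open Subgroup Cfsg Cfsg.Agent.H969.CS Cfsg.Agent.H363.Frat Cfsg.Agent.H363.Master

universe u v

/-- the instance of S4319 which is used -/
def Solv : Prop :=
  ∀ (A K : Type u) [Group A] [Finite A] [Group K] [Finite K] [MulDistribMulAction A K],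
    (Nat.card K).Coprime (Nat.card A) → Group.IsNilpotent ↥(FixedPoints.subgroup A K) → Group.IsSolvable K

variable {G : Type u} [Group G] [Finite G] {s p m : ℕ}

/-- normal subgroups of order prime to `s` are solvable -/
theorem Perf.solv (h : Perf G s p m) (hS : Solv.{u}) (K : Subgroup G) [hK : K.Normal] (hsK : ¬ s ∣ Nat.card ↥K) :
    Group.IsSolvable ↥K := by
  obtain ⟨y, hy⟩ := h.exists_y
  let φ : ↥(zpowers y) →* MulAut ↥K := (MulAut.conjNormal (H := K)).comp (zpowers y).subtype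
  letI : MulDistribMulAction ↥(zpowers y) ↥K := MulDistribMulAction.compHom ↥K φ
  have hsm : ∀ (g : ↥(zpowers y)) (k : ↥K), ((g • k : ↥K) : G) = g * k * (g : G)⁻¹ := fun g k => rfl
  refine hS ↥(zpowers y) ↥K ?_ ?_
  · rw [Nat.card_zpowers, hy, Nat.coprime_comm, Nat.Prime.coprime_iff_not_dvd h.hs]
    exact hsK
  · have hn := h.nilp hy
    let f : ↥(FixedPoints.subgroup ↥(zpowers y) ↥K) →* ↥(Cz y) :=
      { toFun := fun k => ⟨((k : ↥K) : G), by
          rw [mem_Cz]
          have h1 : (((⟨y, mem_zpowers y⟩ : ↥(zpowers y)) • (k : ↥K) : ↥K) : G) = (k : ↥K) :=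
            congrArg Subtype.val (k.2 ⟨y, mem_zpowers y⟩)
          rw [hsm] at h1
          calc (((k : ↥K) : G)) * y = (y * ((k : ↥K) : G) * y⁻¹) * y := by rw [h1]
            _ = y * ((k : ↥K) : G) := by group⟩
        map_one' := rfl
        map_mul' := fun _ _ => rfl }
    refine Subgroup.isNilpotent_of_ker_le_center f ?_
    have : f.ker = ⊥ := by
      rw [MonoidHom.ker_eq_bot_iff]
      intro a b hab
      apply Subtype.ext
      apply Subtype.ext
      exact congrArg (fun z : ↥(Cz y) => (z : G)) hab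
    rw [this]
    exact bot_le

/-- from the lattice of centralizer orders -/
theorem perf_of_lat {S : Type v} [Group S] [Finite S] (hL : Cfsg.Agent.H431.CS.Lat S p s m) (hs : s.Prime)
    (hp : p.Prime) (hsp : s ≠ p) (hG : Cfsg.Agent.H431.CS.Same G S) (hpS : p ∣ Nat.card S) : Perf G s p m where
  hs := hs
  hp := hp
  hsp := hsp
  sG := by rw [hG.card]; exact hL.rS
  na := hL.toLatW.noEdge hs hp hsp hG
  cent := fun y hy => hL.card_cent hs hp hsp hG (hy ▸ dvd_rfl)
  min := by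
    rintro c ⟨g, rfl⟩ hsc hcm
    have hpc : ¬ p ∣ Nat.card ↥(Cz g) := fun h => hL.pm (h.trans hcm)
    refine hL.one _ (hG.mem g) ?_ hsc hpc
    intro h
    exact hpc (by
      have h1 : Nat.card ↥(Cz g) = Nat.card S := h
      rw [h1]; exact hpS)

/-- **The theorem on the simple section.** -/
theorem Perf.final (h : Perf G s p m) (hS : Solv.{u}) (hpG : p ∣ Nat.card G)
    (hle : s ^ (Nat.card G).factorization s ≤ p ^ (Nat.card G).factorization p) (hOp : pCore p G = ⊥)
    (hOl : ∀ l : ℕ, l.Prime → l ∣ m → pCore l G = ⊥) :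
    ∃ (K : Subgroup G) (_ : K.Normal) (N : Subgroup (G ⧸ K)) (_ : N.Normal) (_ : IsSimpleGroup ↥N),
      (¬ ∀ a b : ↥N, a * b = b * a) ∧ ¬ p ∣ Nat.card ↥K ∧ ¬ s ∣ Nat.card ↥K ∧ p ∣ Nat.card ↥N ∧ s ∣ Nat.card ↥N ∧
      N.index ∣ Nat.card (Cfsg.Out ↥N) ∧ Nat.card ↥K * (N.index * Nat.card ↥N) = Nat.card G ∧
      (∀ t : ℕ, t.Prime → ¬ t ∣ m → pCore t G = ⊥ → ¬ t ∣ Nat.card ↥K) ∧
      ((∀ l : ℕ, l.Prime → pCore l G = ⊥) → Nat.card ↥K = 1) := by
  obtain ⟨K, hK, N, hN⟩ := h.exists_sec hpG hle (fun K hKn hsK =>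
    h.not_dvd_core hOp hOl K (h.solv hS K hsK) hsK)
  have hNn := hN.normal
  have hNs := hN.simple
  refine ⟨K, hK, N, hN.normal, hN.simple, hN.nab, hN.pK, hN.sK, hN.pN, hN.sN, index_dvd_out N hN.nab hN.cent, ?_,
    fun t ht htm hOt => h.not_dvd_of ht htm hOt hOl K (h.solv hS K hN.sK) hN.sK, fun hO => ?_⟩
  · rw [mul_comm N.index, Subgroup.card_mul_index, ← Subgroup.index_eq_card, Subgroup.card_mul_index]
  · rw [eq_bot_of_cores hO K (h.solv hS K hN.sK), Subgroup.card_bot]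

end Cfsg.Agent.H402.CS.One
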