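import Mathlib
import Cfsg.Agent.Lib.Zsigmondy
import Cfsg.Agent.S0280

/-!
# Primes `r` with `ord_r (-q) = v` (light copy of `H364.NuOrd`, helper364 / helper402)
-/

set_option autoImplicit false

namespace Cfsg.Agent.H402.CS.NuLight

open Cfsg Finset

/-- the order of `q` when the order of `-q` is `v` -/
def al (v : ℕ) : ℕ := if Odd v then 2 * v else if 4 ∣ v then v else v / 2

theorem al_odd {v : ℕ} (h : Odd v) : al v = 2 * v := if_pos h

theorem al_four {v : ℕ} (h : 4 ∣ v) : al v = v := by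
  unfold al
  rw [if_neg (by rw [Nat.not_odd_iff_even]; obtain ⟨k, rfl⟩ := h; exact ⟨2 * k, by ring⟩), if_pos h]

theorem al_two {v : ℕ} (h : Odd v) : al (2 * v) = v := by
  unfold al
  rw [if_neg (by rw [Nat.not_odd_iff_even]; exact even_two_mul v), if_neg]
  · omega
  · obtain ⟨k, rfl⟩ := h
    omega

theorem al_cases (v : ℕ) : (Odd v ∧ al v = 2 * v) ∨ (4 ∣ v ∧ al v = v) ∨ ∃ w, Odd w ∧ v = 2 * w ∧ al v = w := by
  rcases Nat.even_or_odd v with ⟨w, hw⟩ | h
  · right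
    rcases Nat.even_or_odd w with ⟨t, ht⟩ | h
    · left
      have : 4 ∣ v := ⟨t, by omega⟩
      exact ⟨this, al_four this⟩
    · right
      exact ⟨w, h, by omega, by rw [show v = 2 * w by omega]; exact al_two h⟩
  · left; exact ⟨h, al_odd h⟩

theorem eq_neg_one_of_sq {R : Type*} [Field R] {a : R} (h : a ^ 2 = 1) (h1 : a ≠ 1) : a = -1 := by
  have h2 : (a - 1) * (a + 1) = 0 := by
    have : (a - 1) * (a + 1) = a ^ 2 - 1 := by ring
    rw [this, h, sub_self]
  rcases mul_eq_zero.1 h2 with h | h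
  · exact absurd (sub_eq_zero.1 h) h1
  · exact eq_neg_of_add_eq_zero_left h

theorem orderOf_neg_of {R : Type*} [Field R] (h2 : (2 : R) ≠ 0) {x : R} {v : ℕ} (h : orderOf x = al v) :
    orderOf (-x) = v := by
  have hne : (-1 : R) ≠ 1 := by
    intro h3
    apply h2
    have h4 : (2 : R) = 1 - (-1) := by norm_num
    rw [h4, h3, sub_self]
  have hodd : ∀ k, Odd k → (-x) ^ k = 1 → al v ∣ 2 * k ∧ ¬ al v ∣ k := by
    intro k hk h3
    rw [hk.neg_pow] at h3
    have h4 : x ^ k = -1 := by rw [← h3]; ring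
    constructor
    · rw [← h, orderOf_dvd_iff_pow_eq_one, mul_comm, pow_mul, h4]; ring
    · rw [← h, orderOf_dvd_iff_pow_eq_one, h4]; exact hne
  have heven : ∀ k, Even k → (-x) ^ k = 1 → al v ∣ k := by
    intro k hk h3
    rw [hk.neg_pow] at h3
    rw [← h, orderOf_dvd_iff_pow_eq_one]; exact h3
  have hx : ∀ k, al v ∣ k → x ^ k = 1 := fun k hk => by
    rw [← orderOf_dvd_iff_pow_eq_one, h]; exact hk
  apply Nat.dvd_antisymm
  · apply orderOf_dvd_of_pow_eq_one
    rcases al_cases v with ⟨h3, h4⟩ | ⟨h3, h4⟩ | ⟨w, hw, rfl, h4⟩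
    · rcases Nat.eq_zero_or_pos v with rfl | hv
      · simp
      have h5 : (x ^ v) ^ 2 = 1 := by rw [← pow_mul]; exact hx _ (by rw [h4, mul_comm])
      have h6 : x ^ v ≠ 1 := by
        intro h6
        have h7 : al v ∣ v := by rw [← h]; exact orderOf_dvd_of_pow_eq_one h6
        rw [h4] at h7
        have := Nat.le_of_dvd hv h7
        omega
      rw [h3.neg_pow, eq_neg_one_of_sq h5 h6, neg_neg]
    · obtain ⟨k, rfl⟩ := h3
      rw [Even.neg_pow ⟨2 * k, by ring⟩]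
      exact hx _ (by rw [h4])
    · rw [Even.neg_pow (even_two_mul w)]
      exact hx _ (by rw [h4]; exact Dvd.intro_left 2 rfl)
  · have h3 : (-x) ^ orderOf (-x) = 1 := pow_orderOf_eq_one _
    rcases Nat.even_or_odd (orderOf (-x)) with he | ho
    · have h4 := heven _ he h3
      rcases al_cases v with ⟨h5, h6⟩ | ⟨h5, h6⟩ | ⟨w, hw, rfl, h6⟩
      · rw [h6] at h4; exact (Dvd.intro_left 2 rfl).trans h4
      · rw [h6] at h4; exact h4
      · rw [h6] at h4
        exact (Nat.Coprime.mul_dvd_of_dvd_of_dvd (Nat.coprime_two_left.2 hw) he.two_dvd h4)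
    · obtain ⟨h4, h4'⟩ := hodd _ ho h3
      rcases al_cases v with ⟨h5, h6⟩ | ⟨h5, h6⟩ | ⟨w, hw, rfl, h6⟩
      · rw [h6] at h4; exact Nat.dvd_of_mul_dvd_mul_left (by norm_num) h4
      · rw [h6] at h4
        obtain ⟨k, hk⟩ := ho
        have : 4 ∣ 2 * orderOf (-x) := h5.trans h4
        omega
      · exfalso
        apply h4'
        rw [h6] at h4 ⊢
        exact (Nat.Coprime.dvd_of_dvd_mul_left (Nat.coprime_two_right.2 hw) h4)

/-- for `v ≥ 3` there is a prime `r` with `ord_r (-q) = v` and `ord_r p = f * al v` -/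
theorem exists_prime {p f v : ℕ} (hp : p.Prime) (hf : 1 ≤ f) (hv : 3 ≤ v) (hex : ¬ (p = 2 ∧ f = 1 ∧ v = 3)) :
    ∃ r b : ℕ, r.Prime ∧ r ≠ p ∧ (∀ m, r ∣ p ^ m - 1 ↔ b ∣ m) ∧ b ∣ r - 1 ∧ 3 ≤ b ∧
      orderOf (-((p ^ f : ℕ) : ZMod r)) = v ∧ (b = f * al v ∨ (p = 2 ∧ f = 2 ∧ v = 6 ∧ b = 3 ∧ r = 7)) := by
  by_cases hsp : p = 2 ∧ f * al v = 6
  · obtain ⟨rfl, h6⟩ := hsp
    have hfv : f = 2 ∧ v = 6 := by
      rcases al_cases v with ⟨h3, h4⟩ | ⟨h3, h4⟩ | ⟨w, hw, rfl, h4⟩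
      · exfalso
        rw [h4] at h6
        have h5 : f * v = 3 := by nlinarith
        have : f = 1 := by nlinarith
        subst this
        exact hex ⟨rfl, rfl, by omega⟩
      · exfalso
        rw [h4] at h6
        have h7 : 4 ∣ 6 := h6 ▸ (h3.mul_left f)
        omega
      · rw [h4] at h6
        have h7 : w ∣ 6 := ⟨f, by rw [← h6, mul_comm]⟩
        have h8 := Nat.le_of_dvd (by norm_num) h7
        obtain ⟨t, rfl⟩ := hw
        have : t ≤ 2 := by omega
        interval_cases t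
        · omega
        · omega
        · omega
    obtain ⟨rfl, rfl⟩ := hfv
    have h3 : orderOf ((2 : ℕ) : ZMod 7) = 3 := by
      rw [orderOf_eq_iff (by norm_num)]
      exact ⟨by decide, by decide⟩
    refine ⟨7, 3, by norm_num, by norm_num, fun m => ?_, by norm_num, le_rfl, ?_, Or.inr ⟨rfl, rfl, rfl, rfl, rfl⟩⟩
    · rw [Cfsg.Agent.Lib.Zsigmondy.dvd_pow_sub_one_iff (by norm_num), h3]
    · rw [orderOf_eq_iff (by norm_num)]
      exact ⟨by decide, by decide⟩
  · have hal : 3 ≤ al v := by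
      rcases al_cases v with ⟨h3, h4⟩ | ⟨h3, h4⟩ | ⟨w, hw, rfl, h4⟩
      · omega
      · omega
      · obtain ⟨t, rfl⟩ := hw
        omega
    have h3 : 3 ≤ f * al v := hal.trans (Nat.le_mul_of_pos_left _ (by omega))
    obtain ⟨r, hr, hrm, hrd, hra⟩ := Cfsg.Agent.Lib.Zsigmondy.exists_primitive (a := p) (n := f * al v) hp.two_le
      (by omega) (fun h => by omega) hsp
    have := Fact.mk hr
    have hrp : r ≠ p := by
      rintro rfl
      exact hra dvd_rfl
    refine ⟨r, f * al v, hr, hrp, hrm, hrd, h3, ?_, Or.inl rfl⟩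
    have ho : orderOf (p : ZMod r) = f * al v := by
      apply Nat.dvd_antisymm
      · rw [← Cfsg.Agent.Lib.Zsigmondy.dvd_pow_sub_one_iff hp.one_le, hrm]
      · rw [← hrm, Cfsg.Agent.Lib.Zsigmondy.dvd_pow_sub_one_iff hp.one_le]
    have hr2 : (2 : ZMod r) ≠ 0 := by
      intro h
      have h4 : r ∣ 2 := by
        rw [← ZMod.natCast_eq_zero_iff]; exact_mod_cast h
      have h5 := (Nat.prime_dvd_prime_iff_eq hr Nat.prime_two).1 h4
      have h6 := Nat.le_of_dvd (by rw [h5]; norm_num) hrd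
      omega
    apply orderOf_neg_of hr2
    push_cast
    rw [orderOf_pow_of_dvd (by omega) (by rw [ho]; exact dvd_mul_right _ _), ho, Nat.mul_div_cancel_left _ (by omega)]

theorem dvd_fac_iff {r q i : ℕ} (hq : 1 ≤ q) : r ∣ (if Even i then q ^ (i + 1) + 1 else q ^ (i + 1) - 1) ↔
    (-(q : ZMod r)) ^ (i + 1) = 1 := by
  split_ifs with h
  · rw [h.add_one.neg_pow, ← ZMod.natCast_eq_zero_iff]
    push_cast
    rw [neg_eq_iff_add_eq_zero]
  · rw [Nat.not_even_iff_odd] at h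
    rw [h.add_one.neg_pow, ← ZMod.natCast_eq_zero_iff, Nat.cast_sub (Nat.one_le_pow _ _ hq)]
    push_cast
    rw [sub_eq_zero]

variable {F : Type*} [Field F] [Fintype F] {m q : ℕ}

theorem prime_dvd_psu (hF : Fintype.card F = q ^ 2) (hm : 2 ≤ m) {r : ℕ} (hr : r.Prime)
    (hn1 : 2 ≤ orderOf (-(q : ZMod r))) (hn : orderOf (-(q : ZMod r)) ≤ m) : r ∣ Nat.card (PSU m F q) := by
  have hq : 1 ≤ q := by
    rcases Nat.eq_zero_or_pos q with rfl | h
    · have := Fintype.card_pos (α := F)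
      rw [hF] at this; norm_num at this
    · exact h
  have h1 := Cfsg.Agent.S0280.result hF m hm
  set v := orderOf (-(q : ZMod r)) with hv
  have h2 : r ∣ Nat.gcd m (q + 1) * ((q + 1) * Nat.card (PSU m F q)) := by
    rw [h1]
    refine dvd_mul_of_dvd_right (dvd_trans ?_ (Finset.dvd_prod_of_mem _ (Finset.mem_range.2 (show v - 1 < m by omega)))) _
    rw [dvd_fac_iff hq, show v - 1 + 1 = v by omega]
    exact pow_orderOf_eq_one _
  have h3 : ¬ r ∣ q + 1 := by
    intro h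
    have h4 := (dvd_fac_iff (r := r) (i := 0) hq).1 (by simpa using h)
    rw [zero_add, pow_one] at h4
    rw [h4, orderOf_one] at hv
    omega
  rcases hr.dvd_mul.1 h2 with h4 | h4
  · exact absurd (h4.trans (Nat.gcd_dvd_right _ _)) h3
  · exact (hr.dvd_mul.1 h4).resolve_left h3

/-- the exponent condition -/
theorem lt_lcm {o v f : ℕ} (ho : Odd o) (hv : Even v) (hcop : Nat.Coprime o v) (ho1 : 1 ≤ o) (hv1 : 2 ≤ v) :
    f * (o * v) ≤ Nat.lcm (f * al o) (f * al v) := by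
  rw [Nat.lcm_mul_left]
  apply Nat.mul_le_mul_left
  have hal : ∀ x, 1 ≤ x → 1 ≤ al x := by
    intro x hx
    rcases al_cases x with ⟨h3, h4⟩ | ⟨h3, h4⟩ | ⟨w, hw, rfl, h4⟩ <;> omega
  have h1 : al o ∣ Nat.lcm (al o) (al v) := Nat.dvd_lcm_left _ _
  have h2 : al v ∣ Nat.lcm (al o) (al v) := Nat.dvd_lcm_right _ _
  have h0 : 0 < Nat.lcm (al o) (al v) := Nat.lcm_pos (hal o ho1) (hal v (by omega))
  apply Nat.le_of_dvd h0
  have h1' : 2 * o ∣ Nat.lcm (al o) (al v) := by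
    have := al_odd ho
    rw [← this]; exact h1
  rcases al_cases v with ⟨h3, h4⟩ | ⟨h3, h4⟩ | ⟨w, hw, rfl, h4⟩
  · exact absurd h3 (Nat.not_odd_iff_even.2 hv)
  · have h2' : v ∣ Nat.lcm (al o) (al v) := by
      have := h2
      rwa [h4] at this ⊢
    exact hcop.mul_dvd_of_dvd_of_dvd ((Dvd.intro_left 2 rfl).trans h1') h2'
  · have hcop2 : Nat.Coprime (2 * o) w := by
      rw [Nat.coprime_mul_iff_left]
      exact ⟨Nat.coprime_two_left.2 hw, hcop.coprime_dvd_right (Dvd.intro_left 2 rfl)⟩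
    have h2' : w ∣ Nat.lcm (al o) (al (2 * w)) := by
      have := h2
      rwa [h4] at this ⊢
    have h5 := hcop2.mul_dvd_of_dvd_of_dvd h1' h2'
    rw [show o * (2 * w) = 2 * o * w by ring]
    exact h5

end Cfsg.Agent.H402.CS.NuLight
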