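import Mathlib

/-!
# `q^(n [n/2]) q^(n(n-1)/2) < |PSL_n(q)|`, `n ≥ 4` (helper402, S3677)
-/

set_option autoImplicit false

namespace Cfsg.Agent.H402.CS.NumSize

open Finset

theorem tri (k : ℕ) : (k + 1) * (k + 1 + 3) / 2 = k * (k + 3) / 2 + (k + 2) := by
  have : (k + 1) * (k + 1 + 3) = k * (k + 3) + (k + 2) * 2 := by ring
  rw [this, Nat.add_mul_div_right _ _ (by norm_num)]

theorem prod_ge {q : ℕ} (hq : 2 ≤ q) (k : ℕ) (hk : 1 ≤ k) :
    (q ^ (k + 1) + 2) * q ^ (k * (k + 3) / 2) ≤ 2 * q ^ (k + 1) * ∏ i ∈ range k, (q ^ (i + 2) - 1) := by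
  induction k, hk using Nat.le_induction with
  | base =>
    simp only [range_one, prod_singleton]
    obtain ⟨x, rfl⟩ : ∃ x, q = x + 2 := ⟨q - 2, by omega⟩
    have h1 : (x + 2) ^ (0 + 2) - 1 = x ^ 2 + 4 * x + 3 := by
      have : (x + 2) ^ (0 + 2) = x ^ 2 + 4 * x + 3 + 1 := by ring
      omega
    rw [h1]
    norm_num
    nlinarith [sq_nonneg (x : ℤ), Nat.zero_le x, Nat.zero_le (x ^ 2), Nat.zero_le (x ^ 3), Nat.zero_le (x ^ 4)]
  | succ k hk ih =>
    rw [prod_range_succ, tri]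
    set N := ∏ i ∈ range k, (q ^ (i + 2) - 1) with hN
    set E := q ^ (k * (k + 3) / 2) with hE
    set A := q ^ (k + 1) with hA
    have hA4 : 4 ≤ A := by
      calc 4 = 2 ^ 2 := by norm_num
        _ ≤ q ^ 2 := Nat.pow_le_pow_left hq 2
        _ ≤ q ^ (k + 1) := Nat.pow_le_pow_right (by omega) (by omega)
    have e1 : q ^ (k + 1 + 1) = q * A := by rw [hA, pow_succ]; ring
    have e2 : q ^ (k + 2) = q * A := e1
    rw [e1, pow_add q (k * (k + 3) / 2) (k + 2), e2, ← hE]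
    obtain ⟨B, hB⟩ : ∃ B, q * A = B + 1 := ⟨q * A - 1, by
      have : 0 < q * A := Nat.mul_pos (by omega) (by omega)
      omega⟩
    have hB2 : 3 * A + 2 ≤ 2 * (q * A) := by nlinarith
    rw [hB, Nat.add_sub_cancel]
    -- `(B + 3) E ≤ 2 N B`
    have key : (B + 3) * E ≤ 2 * N * B := by
      have h1 : A * ((B + 3) * E) ≤ A * (2 * N * B) := by
        calc A * ((B + 3) * E) = (A * (B + 3)) * E := by ring
          _ ≤ ((A + 2) * B) * E := by
              apply Nat.mul_le_mul_right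
              rw [hB] at hB2
              nlinarith
          _ = ((A + 2) * E) * B := by ring
          _ ≤ (2 * A * N) * B := Nat.mul_le_mul_right _ ih
          _ = A * (2 * N * B) := by ring
      exact Nat.le_of_mul_le_mul_left h1 (by omega)
    calc (B + 1 + 2) * (E * (B + 1)) = (B + 1) * ((B + 3) * E) := by ring
      _ ≤ (B + 1) * (2 * N * B) := Nat.mul_le_mul_left _ key
      _ = 2 * (B + 1) * (N * B) := by ring

theorem half_lt {q : ℕ} (hq : 2 ≤ q) (k : ℕ) (hk : 1 ≤ k) :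
    q ^ (k * (k + 3) / 2) < 2 * ∏ i ∈ range k, (q ^ (i + 2) - 1) := by
  have h1 := prod_ge hq k hk
  have hA : 0 < q ^ (k + 1) := pow_pos (by omega) _
  have hE : 0 < q ^ (k * (k + 3) / 2) := pow_pos (by omega) _
  by_contra hcon
  push Not at hcon
  have h2 : 2 * q ^ (k + 1) * ∏ i ∈ range k, (q ^ (i + 2) - 1) ≤ q ^ (k + 1) * q ^ (k * (k + 3) / 2) := by
    calc 2 * q ^ (k + 1) * ∏ i ∈ range k, (q ^ (i + 2) - 1) =
          q ^ (k + 1) * (2 * ∏ i ∈ range k, (q ^ (i + 2) - 1)) := by ring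
      _ ≤ _ := Nat.mul_le_mul_left _ hcon
  have h3 := h1.trans h2
  rw [add_mul] at h3
  omega

theorem four {q : ℕ} (hq : 2 ≤ q) :
    Nat.gcd 4 (q - 1) * q ^ 8 < (q ^ 2 - 1) * (q ^ 3 - 1) * (q ^ 4 - 1) := by
  rcases (by omega : q = 2 ∨ q = 3 ∨ q = 4 ∨ 5 ≤ q) with rfl | rfl | rfl | h5
  · decide
  · decide
  · decide
  · have h1 : Nat.gcd 4 (q - 1) ≤ 4 := Nat.gcd_le_left _ (by norm_num)
    refine lt_of_le_of_lt (Nat.mul_le_mul_right _ h1) ?_
    obtain ⟨x, rfl⟩ : ∃ x, q = x + 5 := ⟨q - 5, by omega⟩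
    have e2 : (x + 5) ^ 2 - 1 = x ^ 2 + 10 * x + 24 := by
      have : (x + 5) ^ 2 = x ^ 2 + 10 * x + 24 + 1 := by ring
      omega
    have e3 : (x + 5) ^ 3 - 1 = x ^ 3 + 15 * x ^ 2 + 75 * x + 124 := by
      have : (x + 5) ^ 3 = x ^ 3 + 15 * x ^ 2 + 75 * x + 124 + 1 := by ring
      omega
    have e4 : (x + 5) ^ 4 - 1 = x ^ 4 + 20 * x ^ 3 + 150 * x ^ 2 + 500 * x + 624 := by
      have : (x + 5) ^ 4 = x ^ 4 + 20 * x ^ 3 + 150 * x ^ 2 + 500 * x + 624 + 1 := by ring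
      omega
    rw [e2, e3, e4]
    ring_nf
    have : ∀ i : ℕ, 0 ≤ x ^ i := fun i => Nat.zero_le _
    omega

/-- **The size condition.** -/
theorem size {q n M : ℕ} (hq : 2 ≤ q) (hn : 4 ≤ n)
    (hM : Nat.gcd n (q - 1) * M = q ^ (n * (n - 1) / 2) * ∏ i ∈ range (n - 1), (q ^ (i + 2) - 1)) :
    q ^ (n * (n / 2)) * q ^ (n * (n - 1) / 2) < M := by
  set d := Nat.gcd n (q - 1) with hd
  set N := ∏ i ∈ range (n - 1), (q ^ (i + 2) - 1) with hN
  have hd0 : 0 < d := Nat.gcd_pos_of_pos_left _ (by omega)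
  have hdq : d ≤ q - 1 := Nat.gcd_le_right _ (by omega)
  have hQ : 0 < q ^ (n * (n - 1) / 2) := pow_pos (by omega) _
  -- it suffices
  have key : d * q ^ (n * (n / 2)) < N := by
    rcases (by omega : n = 4 ∨ 5 ≤ n) with rfl | h5
    · have h1 := four hq
      have h2 : N = (q ^ 2 - 1) * (q ^ 3 - 1) * (q ^ 4 - 1) := by
        rw [hN]; simp [prod_range_succ]
      rw [h2, hd]
      exact h1
    · obtain ⟨k, rfl⟩ : ∃ k, n = k + 1 := ⟨n - 1, by omega⟩
      rw [Nat.add_sub_cancel] at hN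
      have h1 := half_lt hq k (by omega)
      rw [← hN] at h1
      have h2 : 2 * d ≤ q ^ 2 := by
        have h3 : 2 * d ≤ 2 * (q - 1) := by omega
        refine h3.trans ?_
        obtain ⟨x, rfl⟩ : ∃ x, q = x + 1 := ⟨q - 1, by omega⟩
        rw [Nat.add_sub_cancel]
        nlinarith [sq_nonneg ((x : ℤ) - 1), sq_nonneg (x : ℤ)]
      have h3 : (k + 1) * ((k + 1) / 2) + 2 ≤ k * (k + 3) / 2 := by
        rw [Nat.le_div_iff_mul_le (by norm_num)]
        rcases Nat.even_or_odd (k + 1) with ⟨j, hj⟩ | ⟨j, hj⟩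
        · have : (k + 1) / 2 = j := by omega
          rw [this]
          obtain rfl : k = 2 * j - 1 := by omega
          obtain ⟨i, rfl⟩ : ∃ i, j = i + 3 := ⟨j - 3, by omega⟩
          have e : 2 * (i + 3) - 1 = 2 * i + 5 := by omega
          rw [e]
          nlinarith
        · have : (k + 1) / 2 = j := by omega
          rw [this]
          obtain rfl : k = 2 * j := by omega
          obtain ⟨i, rfl⟩ : ∃ i, j = i + 2 := ⟨j - 2, by omega⟩
          nlinarith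
      have h4 : 2 * (d * q ^ ((k + 1) * ((k + 1) / 2))) ≤ q ^ (k * (k + 3) / 2) := by
        calc 2 * (d * q ^ ((k + 1) * ((k + 1) / 2))) = (2 * d) * q ^ ((k + 1) * ((k + 1) / 2)) := by ring
          _ ≤ q ^ 2 * q ^ ((k + 1) * ((k + 1) / 2)) := Nat.mul_le_mul_right _ h2
          _ = q ^ ((k + 1) * ((k + 1) / 2) + 2) := by rw [← pow_add, add_comm]
          _ ≤ _ := Nat.pow_le_pow_right (by omega) h3
      omega
  have h1 : d * (q ^ (n * (n / 2)) * q ^ (n * (n - 1) / 2)) < d * M := by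
    rw [hM]
    calc d * (q ^ (n * (n / 2)) * q ^ (n * (n - 1) / 2)) = q ^ (n * (n - 1) / 2) * (d * q ^ (n * (n / 2))) := by ring
      _ < _ := Nat.mul_lt_mul_of_pos_left key hQ
  exact Nat.lt_of_mul_lt_mul_left h1

end Cfsg.Agent.H402.CS.NumSize
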