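import Mathlib
import Cfsg.Agent.H402.CS.PslAll

/-!
# `PSL_n(q)`, `n ≥ 4`: the simple section, with the perfect prime (helper402, S3677)
-/

set_option autoImplicit false

namespace Cfsg.Agent.H402.CS.PslOut

open Subgroup Cfsg Cfsg.Agent.H902 Cfsg.Agent.H431.CS Cfsg.Agent.H402.CS.One Cfsg.Agent.H370.AAM Matrix
open Cfsg.Agent.H402.CS.PslRow Cfsg.Agent.H402.CS.Generic Cfsg.Agent.H402.CS.PslAll
open Cfsg.Agent.H969.CS (CO Cz mem_Cz mem_CO)

universe u v

variable {F : Type} [Field F] [Fintype F] {n p f : ℕ}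

/-- **The simple section, `PSL_n(q)`, `n ≥ 4`.** -/
theorem psl_sect2 (numL : NumL) {G : Type u} [Group G] [Finite G] (hS : Solv.{u}) (hp : p.Prime) (hf : 1 ≤ f)
    (hF : Fintype.card F = p ^ f) (hn : 4 ≤ n) (hG : Same G (ProjectiveSpecialLinearGroup (Fin n) F))
    (hreg : ∃ k, p ^ k ∈ Co (ProjectiveSpecialLinearGroup (Fin n) F))
    (h67 : p ^ f = 2 → n = 6 ∨ n = 7 → pCore 2 G = ⊥) :
    ∃ (s m : ℕ) (K : Subgroup G) (_ : K.Normal) (N : Subgroup (G ⧸ K)), Sect G p s K N ∧ Nat.card ↥K = 1 ∧
      Perf G s p m ∧ (orderOf ((p ^ f : ℕ) : ZMod s) = n - 1 ∨ (s = 127 ∧ p = 2 ∧ f = 1 ∧ n = 7)) := by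
  have hfin : Finite (ProjectiveSpecialLinearGroup (Fin n) F) := Quotient.finite _
  have hY := real_psl (F := F) (n := n) hp hf hF hn
  have hpS := p_dvd_psl (F := F) (n := n) hp hf hF hn
  have hfac := fac_psl (F := F) (n := n) hp hf hF hn
  have hdom : ∀ s : ℕ, s.Prime → s ≠ p → s ^ (Nat.card (ProjectiveSpecialLinearGroup (Fin n) F)).factorization s ≤
      p ^ (Nat.card (ProjectiveSpecialLinearGroup (Fin n) F)).factorization p := by
    intro s hs hsp
    have h1 := hY.dom (by simp; omega) hs hsp (by simp) (by simp)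
    rw [Art.P, ← pow_mul] at h1
    rw [hfac]
    exact h1
  by_cases h7 : p ^ f = 2 ∧ n = 7
  · obtain ⟨hq, rfl⟩ := h7
    have hp2 : p = 2 := by
      have : p ∣ 2 := hq ▸ dvd_pow_self p (by omega)
      exact (Nat.prime_dvd_prime_iff_eq hp Nat.prime_two).1 this
    subst hp2
    have hL := Seven.lat (F := F) (by rw [hF, hq]) hreg
    have hP := perf_of_lat hL (by norm_num) hp (by norm_num) hG hpS
    have hZ := center_eq_bot_of hG hP hreg
    obtain ⟨K, hK, N, h1, h2, h3⟩ := final_of hS hG hP hpS (hdom 127 (by norm_num) (by norm_num)) (h67 hq (Or.inr rfl))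
      (fun l hl hlm => cores numL hp hf hF hn hG hZ hl (fun h => hP.not_p_m (h ▸ hlm)) (by omega))
    refine ⟨127, _, K, hK, N, h1, h3 fun l hl hlp => cores numL hp hf hF hn hG hZ hl hlp (by omega), hP,
      Or.inr ⟨rfl, rfl, ?_, rfl⟩⟩
    exact Nat.pow_right_injective (le_refl 2) (by simpa using hq)
  by_cases h6 : p ^ f = 2 ∧ n = 6
  · obtain ⟨hq, rfl⟩ := h6
    have hp2 : p = 2 := by
      have : p ∣ 2 := hq ▸ dvd_pow_self p (by omega)
      exact (Nat.prime_dvd_prime_iff_eq hp Nat.prime_two).1 this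
    subst hp2
    have ho : orderOf ((2 ^ f : ℕ) : ZMod 31) = 6 - 1 := by
      rw [hq]
      have : Fact (Nat.Prime 5) := ⟨by norm_num⟩
      apply orderOf_eq_prime
      · decide
      · decide
    have hL := Cfsg.Agent.H277.CS.lat_psl_sub (F := F) hp hf hF (by norm_num : 3 ≤ 6) (by norm_num : (31 : ℕ).Prime) ho
    have hP := perf_of_lat hL (by norm_num) hp (by norm_num) hG hpS
    have hZ := center_eq_bot_of hG hP hreg
    obtain ⟨K, hK, N, h1, h2, h3⟩ := final_of hS hG hP hpS (hdom 31 (by norm_num) (by norm_num)) (h67 hq (Or.inl rfl))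
      (fun l hl hlm => cores numL hp hf hF hn hG hZ hl (fun h => hP.not_p_m (h ▸ hlm)) (by omega))
    exact ⟨31, _, K, hK, N, h1, h3 fun l hl hlp => cores numL hp hf hF hn hG hZ hl hlp (by omega), hP, Or.inl ho⟩
  -- the generic case
  obtain ⟨r, hr, hro, ha⟩ := exists_order (k := n) hp hf (by omega) (by
    rintro ⟨rfl, h⟩
    have h2 : n ∣ 6 := Dvd.intro_left _ h
    have h3 := Nat.le_of_dvd (by norm_num) h2
    have h4 : n = 6 := by
      rcases (by omega : n = 4 ∨ n = 5 ∨ n = 6) with rfl | rfl | rfl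
      · norm_num at h2
      · norm_num at h2
      · rfl
    subst h4
    have : f = 1 := by omega
    subst this
    exact h6 ⟨by norm_num, rfl⟩)
  obtain ⟨s, b, hs, hso, hb, hlcm⟩ : ∃ s b : ℕ, s.Prime ∧ orderOf ((p ^ f : ℕ) : ZMod s) = n - 1 ∧
      (∀ j, s ∣ p ^ j - 1 → b ∣ j) ∧ f * (n * (n - 1) / 2) < Nat.lcm (f * n) b := by
    by_cases h : p = 2 ∧ f * (n - 1) = 6
    · obtain ⟨rfl, h⟩ := h
      have h2 : n - 1 ∣ 6 := Dvd.intro_left _ h
      have h3 := Nat.le_of_dvd (by norm_num) h2
      have h4 : n = 4 ∧ f = 2 := by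
        rcases (by omega : n = 4 ∨ n = 5 ∨ n = 6 ∨ n = 7) with rfl | rfl | rfl | rfl
        · exact ⟨rfl, by omega⟩
        · norm_num at h2
        · norm_num at h2
        · exfalso
          have : f = 1 := by omega
          subst this
          exact h7 ⟨by norm_num, rfl⟩
      obtain ⟨rfl, rfl⟩ := h4
      refine ⟨7, 3, by norm_num, ?_, ?_, by decide⟩
      · have : Fact (Nat.Prime 3) := ⟨Nat.prime_three⟩
        apply orderOf_eq_prime
        · decide
        · decide
      · intro j hj
        rw [Cfsg.Agent.Lib.Zsigmondy.dvd_pow_sub_one_iff (by norm_num)] at hj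
        have h3 : orderOf ((2 : ℕ) : ZMod 7) = 3 := by
          have : Fact (Nat.Prime 3) := ⟨Nat.prime_three⟩
          apply orderOf_eq_prime
          · decide
          · decide
        rwa [h3] at hj
    · obtain ⟨s, hs, hso, hb⟩ := exists_order (k := n - 1) hp hf (by omega) h
      exact ⟨s, f * (n - 1), hs, hso, hb, lcm_lt hf hn⟩
  have hsp := ne_of_order hs hp hf (by omega) hso
  have hrp := ne_of_order hr hp hf (by omega) hro
  have hL := Cfsg.Agent.H277.CS.lat_psl_sub (F := F) hp hf hF (by omega : 3 ≤ n) hs hso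
  have hP := perf_of_lat hL hs hp hsp hG hpS
  have hZ := center_eq_bot_of hG hP hreg
  have hcore : ∀ t : ℕ, t.Prime → t ≠ p → pCore t G = ⊥ := by
    intro t ht htp
    by_cases h43 : n = 4 ∧ p ^ f = 3
    · obtain ⟨rfl, hq⟩ := h43
      have hp3 : p = 3 := by
        have : p ∣ 3 := hq ▸ dvd_pow_self p (by omega)
        exact (Nat.prime_dvd_prime_iff_eq hp Nat.prime_three).1 this
      subst hp3
      have hcard : Nat.card (ProjectiveSpecialLinearGroup (Fin 4) F) = 6065280 := by
        have h := hY.eq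
        rw [hq] at h
        have e1 : Art.dd (.L 4) 3 = 2 := by decide
        have e2 : (3 : ℕ) ^ Art.NN (.L 4) * Art.num (.L 4) 3 = 12130560 := by decide +kernel
        rw [e1, e2] at h
        omega
      by_cases ht2 : t = 2
      · subst ht2
        -- `s = 13`
        have hs13 : s = 13 := by
          rw [hq] at hso
          have h1 : s ∣ 3 ^ 3 - 1 := by
            rw [Cfsg.Agent.Lib.Zsigmondy.dvd_pow_sub_one_iff (by norm_num), hso]
          have h2 : s ∣ 2 * 13 := h1
          rcases hs.dvd_mul.1 h2 with h3 | h3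
          · exfalso
            have h4 : s ∣ 3 ^ 1 - 1 := h3
            rw [Cfsg.Agent.Lib.Zsigmondy.dvd_pow_sub_one_iff (by norm_num), hso] at h4
            norm_num at h4
          · exact (Nat.prime_dvd_prime_iff_eq hs (by norm_num)).1 h3
        subst hs13
        have hord : orderOf ((2 : ℕ) : ZMod 13) = 12 := by
          rw [orderOf_eq_iff (by norm_num)]
          exact ⟨by decide, by decide⟩
        refine pCore_eq_bot_of_order (b := 12) hP hZ ht ?_ ?_ ?_
        · rw [hq]; decide
        · intro j hj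
          rwa [Cfsg.Agent.Lib.Zsigmondy.dvd_pow_sub_one_iff (by norm_num), hord] at hj
        · intro c hc hcG j hj hjle
          have hfac2 : (Nat.card G).factorization 2 = 7 := by
            rw [hG.card, hcard]
            have h1 : (6065280 : ℕ) = 2 ^ 7 * 47385 := by norm_num
            rw [h1, Nat.factorization_mul (by norm_num) (by norm_num), Finsupp.add_apply,
              Nat.Prime.factorization_pow (by norm_num), Finsupp.single_eq_same,
              Nat.factorization_eq_zero_of_not_dvd (by norm_num)]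
          rw [hfac2] at hjle
          have hj0 : j = 0 := Nat.eq_zero_of_dvd_of_lt hj (by omega)
          rw [hj0, pow_zero, one_mul]
          obtain ⟨g, rfl⟩ := hc
          exact Nat.le_of_dvd Nat.card_pos (Subgroup.card_subgroup_dvd_card _)
      · refine pCore_eq_bot_of_class hG hZ ht fun x hx => ?_
        have h1 := PslSize.card_cent_le (F := F) (n := 4) (by omega) hx
        rw [Nat.card_eq_fintype_card (α := F), hF, hq] at h1
        have h2 : t ^ (Nat.card (ProjectiveSpecialLinearGroup (Fin 4) F)).factorization t ≤ 13 := by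
          rw [hcard]
          by_cases ht5 : t = 5
          · subst ht5
            have h1 : (6065280 : ℕ) = 5 ^ 1 * 1213056 := by norm_num
            rw [h1, Nat.factorization_mul (by norm_num) (by norm_num), Finsupp.add_apply,
              Nat.Prime.factorization_pow (by norm_num), Finsupp.single_eq_same,
              Nat.factorization_eq_zero_of_not_dvd (by norm_num)]
            norm_num
          by_cases ht13 : t = 13
          · subst ht13
            have h1 : (6065280 : ℕ) = 13 ^ 1 * 466560 := by norm_num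
            rw [h1, Nat.factorization_mul (by norm_num) (by norm_num), Finsupp.add_apply,
              Nat.Prime.factorization_pow (by norm_num), Finsupp.single_eq_same,
              Nat.factorization_eq_zero_of_not_dvd (by norm_num)]
            norm_num
          · rw [Nat.factorization_eq_zero_of_not_dvd, pow_zero]
            · norm_num
            · intro h
              have h1 : t ∣ 2 ^ 7 * 3 ^ 6 * 5 * 13 := h
              rcases ht.dvd_mul.1 h1 with h1 | h1
              · rcases ht.dvd_mul.1 h1 with h1 | h1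
                · rcases ht.dvd_mul.1 h1 with h1 | h1
                  · exact ht2 ((Nat.prime_dvd_prime_iff_eq ht Nat.prime_two).1 (ht.dvd_of_dvd_pow h1))
                  · exact htp ((Nat.prime_dvd_prime_iff_eq ht Nat.prime_three).1 (ht.dvd_of_dvd_pow h1))
                · exact ht5 ((Nat.prime_dvd_prime_iff_eq ht (by norm_num)).1 h1)
              · exact ht13 ((Nat.prime_dvd_prime_iff_eq ht (by norm_num)).1 h1)
        calc t ^ (Nat.card (ProjectiveSpecialLinearGroup (Fin 4) F)).factorization t *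
              Nat.card ↥(centralizer ({x} : Set (ProjectiveSpecialLinearGroup (Fin 4) F)))
            ≤ 13 * 3 ^ ((4 - 1) ^ 2 + 1) := Nat.mul_le_mul h2 h1
          _ ≤ _ := by rw [hcard]; norm_num
    · exact cores numL hp hf hF hn hG hZ ht htp h43
  obtain ⟨K, hK, N, hNn, hNs, h1, h2, h3, h4, h5, h8⟩ := psl_final hS hp hf hF hn hG hs hso hr hro ha hb hlcm hreg
    (NumSize.size hY.q_ge hn hY.eq) hcore
  refine ⟨s, _, K, hK, N, ⟨hNn, hNs, h1, ?_, ?_, h2, h3, h4, h5⟩, h8, hP, Or.inl hso⟩
  · rw [h8]; exact fun h => hp.one_lt.ne' (Nat.dvd_one.1 h)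
  · rw [h8]; exact fun h => hs.one_lt.ne' (Nat.dvd_one.1 h)

end Cfsg.Agent.H402.CS.PslOut
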