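import Mathlib

/-!
# Centralizers in central quotients (helper402, S3677)
-/

set_option autoImplicit false

namespace Cfsg.Agent.H402.CS.Quot

open Subgroup

universe u

variable {G : Type u} [Group G] [Finite G]

/-- the preimage of the centralizer of `x Z(G)` -/
def pre (x : G) : Subgroup G where
  carrier := {g | g * x * g⁻¹ * x⁻¹ ∈ center G}
  one_mem' := by simp [one_mem]
  mul_mem' := by
    intro a b ha hb
    have ha' : a * x * a⁻¹ * x⁻¹ ∈ center G := ha
    have hb' : b * x * b⁻¹ * x⁻¹ ∈ center G := hb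
    show a * b * x * (a * b)⁻¹ * x⁻¹ ∈ center G
    have h1 := mem_center_iff.1 hb'
    have e : a * b * x * (a * b)⁻¹ * x⁻¹ = (a * (b * x * b⁻¹ * x⁻¹)) * (x * a⁻¹ * x⁻¹) := by group
    rw [e, h1 a]
    have e2 : b * x * b⁻¹ * x⁻¹ * a * (x * a⁻¹ * x⁻¹) = (b * x * b⁻¹ * x⁻¹) * (a * x * a⁻¹ * x⁻¹) := by group
    rw [e2]
    exact mul_mem hb' ha'
  inv_mem' := by
    intro a ha
    have ha' : a * x * a⁻¹ * x⁻¹ ∈ center G := ha
    show a⁻¹ * x * a⁻¹⁻¹ * x⁻¹ ∈ center G
    have h1 := mem_center_iff.1 (inv_mem ha')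
    have e : a⁻¹ * x * a⁻¹⁻¹ * x⁻¹ = a⁻¹ * (a * x * a⁻¹ * x⁻¹)⁻¹ * a := by
      group
    rw [e, h1 a⁻¹, mul_assoc, inv_mul_cancel, mul_one]
    exact inv_mem ha'

theorem mem_pre {x g : G} : g ∈ pre x ↔ g * x * g⁻¹ * x⁻¹ ∈ center G := Iff.rfl

theorem comap_eq (x : G) : (centralizer {(x : G ⧸ center G)}).comap (QuotientGroup.mk' (center G)) = pre x := by
  ext g
  rw [Subgroup.mem_comap, mem_centralizer_singleton_iff, mem_pre, QuotientGroup.mk'_apply,
    ← QuotientGroup.mk_mul, ← QuotientGroup.mk_mul, eq_comm, QuotientGroup.eq]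
  constructor
  · intro h
    have e : g * x * g⁻¹ * x⁻¹ = (x * g) * ((x * g)⁻¹ * (g * x)) * (x * g)⁻¹ := by group
    rw [e]
    exact (inferInstance : (center G).Normal).conj_mem _ h _
  · intro h
    have e : (x * g)⁻¹ * (g * x) = (x * g)⁻¹ * (g * x * g⁻¹ * x⁻¹) * ((x * g)⁻¹)⁻¹ := by group
    rw [e]
    exact (inferInstance : (center G).Normal).conj_mem _ h _

/-- the commutator with `x` -/
def comm (x : G) : ↥(pre x) →* ↥(center G) where
  toFun g := ⟨g * x * (g : G)⁻¹ * x⁻¹, g.2⟩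
  map_one' := by apply Subtype.ext; simp
  map_mul' a b := by
    apply Subtype.ext
    show (a : G) * b * x * ((a : G) * b)⁻¹ * x⁻¹ = (a * x * (a : G)⁻¹ * x⁻¹) * (b * x * (b : G)⁻¹ * x⁻¹)
    have h1 := mem_center_iff.1 b.2
    have e : (a : G) * b * x * ((a : G) * b)⁻¹ * x⁻¹ = ((a : G) * (b * x * (b : G)⁻¹ * x⁻¹)) * (x * (a : G)⁻¹ * x⁻¹) := by group
    rw [e, h1 a]
    have e2 : (b : G) * x * (b : G)⁻¹ * x⁻¹ * a * (x * (a : G)⁻¹ * x⁻¹) =
        (b * x * (b : G)⁻¹ * x⁻¹) * (a * x * (a : G)⁻¹ * x⁻¹) := by group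
    rw [e2]
    exact (mem_center_iff.1 b.2 _).symm

theorem ker_comm (x : G) : (comm x).ker = (centralizer {x}).subgroupOf (pre x) := by
  ext g
  rw [MonoidHom.mem_ker, Subgroup.mem_subgroupOf, mem_centralizer_singleton_iff]
  constructor
  · intro h
    have h1 : (g : G) * x * (g : G)⁻¹ * x⁻¹ = 1 := congrArg Subtype.val h
    calc (g : G) * x = (g * x * (g : G)⁻¹ * x⁻¹) * (x * g) := by group
      _ = x * g := by rw [h1, one_mul]
  · intro h
    apply Subtype.ext
    show (g : G) * x * (g : G)⁻¹ * x⁻¹ = 1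
    rw [h]; group

/-- **The centralizer order in the central quotient divides the centralizer order.** -/
theorem card_cent_dvd (x : G) :
    Nat.card ↥(centralizer {(x : G ⧸ center G)}) ∣ Nat.card ↥(centralizer {x}) := by
  have h1 : Nat.card ↥(pre x) = Nat.card ↥(center G) * Nat.card ↥(centralizer {(x : G ⧸ center G)}) := by
    have h2 := Subgroup.card_mul_index (pre x)
    have h3 := Subgroup.card_mul_index (centralizer {(x : G ⧸ center G)})
    have h4 := Subgroup.card_mul_index (center G)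
    rw [← comap_eq, Subgroup.index_comap_of_surjective _ (QuotientGroup.mk'_surjective _)] at h2
    rw [Subgroup.index_eq_card (center G), ← h3] at h4
    have h5 : (centralizer {(x : G ⧸ center G)}).index ≠ 0 := Subgroup.index_ne_zero_of_finite
    rw [comap_eq] at h2
    apply Nat.eq_of_mul_eq_mul_right (Nat.pos_of_ne_zero h5)
    rw [h2, ← h4]; ring
  have hle : centralizer {x} ≤ pre x := by
    intro g hg
    rw [mem_centralizer_singleton_iff] at hg
    rw [mem_pre, hg]
    have e : x * g * g⁻¹ * x⁻¹ = 1 := by group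
    rw [e]; exact one_mem _
  have h2 : Nat.card ↥(centralizer {x}) * Nat.card ↥(comm x).range = Nat.card ↥(pre x) := by
    have h3 := Subgroup.card_mul_index (comm x).ker
    rw [Subgroup.index_ker, ker_comm, Nat.card_congr (Subgroup.subgroupOfEquivOfLe hle).toEquiv] at h3
    exact h3
  obtain ⟨k, hk⟩ := Subgroup.card_subgroup_dvd_card (comm x).range
  refine ⟨k, ?_⟩
  have h5 : 0 < Nat.card ↥(comm x).range := Nat.card_pos
  apply Nat.eq_of_mul_eq_mul_right h5
  rw [h2, h1, hk]; ring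

end Cfsg.Agent.H402.CS.Quot
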