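import Mathlib
import Cfsg.Agent.H277.CS.PslCent
import Cfsg.Agent.H402.CS.Quot
import Cfsg.Agent.H402.CS.Commutant
import Cfsg.Agent.H402.CS.FieldComm

/-!
# Upper bounds for the centralizer orders of `PSL_n(q)` (helper402, S3677)
-/

set_option autoImplicit false

namespace Cfsg.Agent.H402.CS.PslSize

open Matrix Module Cfsg.Agent.H363.PslSpec

universe u

variable {F : Type u} [Field F] [Finite F] {n : ℕ}

theorem act_ne_scalar {X : SpecialLinearGroup (Fin n) F} (hX : X ∉ Subgroup.center (SpecialLinearGroup (Fin n) F))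
    (c : F) : act X ≠ algebraMap F (Module.End F (Fin n → F)) c := by
  intro h
  apply hX
  rw [Matrix.SpecialLinearGroup.mem_center_iff]
  have h1 : (X : Matrix (Fin n) (Fin n) F) = scalar (Fin n) c := by
    apply (toLinAlgEquiv' : Matrix (Fin n) (Fin n) F ≃ₐ[F] _).injective
    rw [← act_apply, h]
    have : (scalar (Fin n)) c = algebraMap F (Matrix (Fin n) (Fin n) F) c := rfl
    rw [this, AlgEquiv.commutes]
  refine ⟨c, ?_, h1.symm⟩
  have h2 := X.2
  rw [h1] at h2
  simpa using h2

/-- the centralizer order in `PSL_n` is at most the order of the commutant -/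
theorem card_cent_le_commutant (X : SpecialLinearGroup (Fin n) F) :
    Nat.card ↥(Subgroup.centralizer {(X : SpecialLinearGroup (Fin n) F ⧸ Subgroup.center (SpecialLinearGroup (Fin n) F))}) ≤
      Nat.card {c : Module.End F (Fin n → F) // c * act X = act X * c} := by
  have : Finite (Module.End F (Fin n → F)) := Module.finite_of_finite F
  refine (Nat.le_of_dvd Nat.card_pos (Quot.card_cent_dvd X)).trans ?_
  rw [show Nat.card ↥(Subgroup.centralizer {X}) = _ from Cfsg.Agent.H277.CS.card_cent_sl X]
  exact Nat.card_le_card_of_injective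
    (fun b : {b : Module.End F (Fin n → F) // LinearMap.det b = 1 ∧ Commute b (act X)} =>
      (⟨b.1, b.2.2⟩ : {c : Module.End F (Fin n → F) // c * act X = act X * c}))
    (fun a b hab => Subtype.ext (congrArg
      (fun z : {c : Module.End F (Fin n → F) // c * act X = act X * c} => (z : Module.End F (Fin n → F))) hab))

/-- **All centralizer orders.** -/
theorem card_cent_le (hn : 2 ≤ n) {x : ProjectiveSpecialLinearGroup (Fin n) F} (hx : x ≠ 1) :
    Nat.card ↥(Subgroup.centralizer ({x} : Set (ProjectiveSpecialLinearGroup (Fin n) F))) ≤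
      Nat.card F ^ ((n - 1) ^ 2 + 1) := by
  obtain ⟨X, rfl⟩ := QuotientGroup.mk_surjective x
  have hX : X ∉ Subgroup.center (SpecialLinearGroup (Fin n) F) := fun h => hx ((QuotientGroup.eq_one_iff X).2 h)
  refine (card_cent_le_commutant X).trans ?_
  have h1 := Commutant.card_commutant_le (F := F) (V := Fin n → F) (x := act X) (by
    intro c
    by_contra hcon
    push Not at hcon
    exact act_ne_scalar hX c (LinearMap.ext hcon)) (by rw [finrank_fin_fun]; exact hn)
  rwa [finrank_fin_fun] at h1

/-- **The centralizer orders divisible by a primitive prime divisor of `q ^ n - 1`.** -/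
theorem card_cent_le_top {r : ℕ} (hr : r.Prime) (hrn : r ∣ Nat.card F ^ n - 1)
    (hrd : ∀ d, 0 < d → d < n → ¬ r ∣ Nat.card F ^ d - 1) {x : ProjectiveSpecialLinearGroup (Fin n) F} (hx : x ≠ 1)
    (hrx : r ∣ Nat.card ↥(Subgroup.centralizer ({x} : Set (ProjectiveSpecialLinearGroup (Fin n) F)))) :
    Nat.card ↥(Subgroup.centralizer ({x} : Set (ProjectiveSpecialLinearGroup (Fin n) F))) ≤
      Nat.card F ^ (n * (n / 2)) := by
  obtain ⟨X, rfl⟩ := QuotientGroup.mk_surjective x
  have hX : X ∉ Subgroup.center (SpecialLinearGroup (Fin n) F) := fun h => hx ((QuotientGroup.eq_one_iff X).2 h)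
  refine (card_cent_le_commutant X).trans ?_
  have := Fact.mk hr
  obtain ⟨Y, hY⟩ := exists_prime_orderOf_dvd_card' r (hrx.trans (Quot.card_cent_dvd X))
  have hYr : (act (Y : SpecialLinearGroup (Fin n) F)) ^ r = 1 := by
    rw [← map_pow]
    have h1 : ((Y : SpecialLinearGroup (Fin n) F)) ^ r = 1 := by
      rw [← Subgroup.coe_pow, ← hY, pow_orderOf_eq_one, Subgroup.coe_one]
    rw [h1, map_one]
  have hY1 : act (Y : SpecialLinearGroup (Fin n) F) ≠ 1 := by
    intro h
    have h1 : (Y : SpecialLinearGroup (Fin n) F) = 1 := act_injective (by rw [h, map_one])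
    have h2 : Y = 1 := Subtype.ext h1
    rw [h2, orderOf_one] at hY
    exact hr.one_lt.ne hY
  have hXY : Commute (act X) (act (Y : SpecialLinearGroup (Fin n) F)) := by
    have h1 : Commute X (Y : SpecialLinearGroup (Fin n) F) :=
      (Subgroup.mem_centralizer_singleton_iff.1 Y.2).symm
    exact h1.map act
  obtain ⟨K, iK, iKf, iKA, f, -, hf⟩ := Cfsg.Agent.H363.CentField.exists_field (F := F) (V := Fin n → F) hr hYr hY1
    (by rw [finrank_fin_fun]; exact hrn) (by rw [finrank_fin_fun]; exact hrd)
  obtain ⟨k, hk⟩ := (hf (act X)).1 hXY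
  obtain ⟨m, hm, hle⟩ := FieldComm.card_le f k (by
    intro a ha
    apply act_ne_scalar hX a
    rw [← hk, ← ha, AlgHom.commutes])
  rw [hk, finrank_fin_fun] at hle
  rw [finrank_fin_fun] at hm
  refine hle.trans (Nat.pow_le_pow_right Nat.card_pos (Nat.mul_le_mul_left _ ?_))
  omega

end Cfsg.Agent.H402.CS.PslSize
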