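import Mathlib
import Cfsg.Agent.H902.Names
import Cfsg.Agent.H902.Facts
import Cfsg.Agent.H277.CS.PslSub
import Cfsg.Agent.H402.CS.PslSize
import Cfsg.Agent.H402.CS.Final
import Cfsg.Agent.Lib.Zsigmondy

/-!
# `PSL_n(q)`, `n ≥ 4`: the simple section (helper402, S3677)
-/

set_option autoImplicit false

namespace Cfsg.Agent.H402.CS.PslRow

open Subgroup Cfsg Cfsg.Agent.H902 Cfsg.Agent.H431.CS Cfsg.Agent.H402.CS.One Cfsg.Agent.H370.AAM Matrix
open Cfsg.Agent.H969.CS (CO Cz mem_Cz mem_CO)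

universe u v

theorem ne_of_order {p f s k : ℕ} (hs : s.Prime) (hp : p.Prime) (hf : 1 ≤ f) (hk : 1 ≤ k)
    (ho : orderOf ((p ^ f : ℕ) : ZMod s) = k) : s ≠ p := by
  rintro rfl
  have h0 : ((s ^ f : ℕ) : ZMod s) = 0 := by
    rw [Nat.cast_pow, ZMod.natCast_self, zero_pow (by omega)]
  rw [h0] at ho
  have h1 : (0 : ZMod s) ^ k = 1 := by rw [← ho]; exact pow_orderOf_eq_one _
  rw [zero_pow (by omega)] at h1
  have := Fact.mk hs
  exact zero_ne_one h1

/-- the centralizer orders of `G` in terms of those of `S` -/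
theorem co_bound {G : Type u} [Group G] [Finite G] {S : Type v} [Group S] [Finite S] (hG : Same G S) {P : ℕ → Prop}
    (h : ∀ x : S, x ≠ 1 → P (Nat.card ↥(centralizer ({x} : Set S)))) :
    ∀ c ∈ CO G, c ≠ Nat.card G → P c := by
  rintro c ⟨g, rfl⟩ hc
  obtain ⟨x, hx⟩ := hG.mem g
  have hx' : Nat.card ↥(centralizer ({x} : Set S)) = Nat.card ↥(Cz g) := hx
  show P (Nat.card ↥(Cz g))
  rw [← hx']
  apply h
  rintro rfl
  apply hc
  show Nat.card ↥(Cz g) = _
  rw [← hx', hG.card]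
  have : centralizer ({(1 : S)} : Set S) = ⊤ := by
    rw [eq_top_iff]
    intro w _
    rw [mem_centralizer_singleton_iff, mul_one, one_mul]
  rw [this, Subgroup.card_top]

variable {F : Type} [Field F] [Fintype F] {n p f : ℕ}

/-- the centre is trivial -/
theorem center_eq_bot_of {G : Type u} [Group G] [Finite G] {S : Type v} [Group S] [Finite S] (hG : Same G S)
    {s m : ℕ} (h : Perf G s p m) (hreg : ∃ k, p ^ k ∈ Co S) : center G = ⊥ := by
  apply center_eq_bot
  intro l hl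
  by_cases hlp : l = p
  · obtain ⟨y, hy⟩ := h.exists_y
    refine ⟨_, mem_CO y, ?_⟩
    rw [h.cent y hy, hlp]
    exact h.not_p_m
  · obtain ⟨k, hk⟩ := hreg
    refine ⟨p ^ k, ?_, fun hd => hlp ((Nat.prime_dvd_prime_iff_eq hl h.hp).1 (hl.dvd_of_dvd_pow hd))⟩
    rw [← hG.co] at hk
    exact hk

/-- **The simple section, `PSL_n(q)`, `n ≥ 4`.** -/
theorem psl_final {G : Type u} [Group G] [Finite G] (hS : Solv.{u}) (hp : p.Prime) (hf : 1 ≤ f)
    (hF : Fintype.card F = p ^ f) (hn : 4 ≤ n) (hG : Same G (ProjectiveSpecialLinearGroup (Fin n) F))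
    {s r a b : ℕ} (hs : s.Prime) (hso : orderOf ((p ^ f : ℕ) : ZMod s) = n - 1) (hr : r.Prime)
    (hro : orderOf ((p ^ f : ℕ) : ZMod r) = n) (ha : ∀ j, r ∣ p ^ j - 1 → a ∣ j) (hb : ∀ j, s ∣ p ^ j - 1 → b ∣ j)
    (hlcm : f * (n * (n - 1) / 2) < Nat.lcm a b) (hreg : ∃ k, p ^ k ∈ Co (ProjectiveSpecialLinearGroup (Fin n) F))
    (hrsize : (p ^ f) ^ (n * (n / 2)) * (p ^ f) ^ (n * (n - 1) / 2) < Nat.card (ProjectiveSpecialLinearGroup (Fin n) F))
    (hcore : ∀ t : ℕ, t.Prime → t ≠ p → pCore t G = ⊥) :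
    ∃ (K : Subgroup G) (_ : K.Normal) (N : Subgroup (G ⧸ K)) (_ : N.Normal) (_ : IsSimpleGroup ↥N),
      (¬ ∀ a b : ↥N, a * b = b * a) ∧ p ∣ Nat.card ↥N ∧ s ∣ Nat.card ↥N ∧
      N.index ∣ Nat.card (Cfsg.Out ↥N) ∧ Nat.card ↥K * (N.index * Nat.card ↥N) = Nat.card G ∧ Nat.card ↥K = 1 := by
  have hY := Names.psl_real (F := F) hp hf hF (by omega : 2 ≤ n) (by omega)
  have hsp := ne_of_order hs hp hf (by omega) hso
  have hrp := ne_of_order hr hp hf (by omega) hro
  set S := ProjectiveSpecialLinearGroup (Fin n) F with hSdef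
  have hSf : Finite S := Quotient.finite _
  have hN : (Nat.card G).factorization p = f * (n * (n - 1) / 2) := by
    rw [hG.card]
    have h1 := hY.P_self
    rw [Art.P, ← pow_mul] at h1
    exact Nat.pow_right_injective hp.two_le h1
  have hNpos : 0 < n * (n - 1) / 2 := by
    apply Nat.div_pos _ (by norm_num)
    nlinarith [Nat.sub_add_cancel (show 1 ≤ n by omega)]
  have hpS : p ∣ Nat.card S := by
    rw [← hG.card]
    by_contra hcon
    rw [Nat.factorization_eq_zero_of_not_dvd hcon] at hN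
    have : 0 < f * (n * (n - 1) / 2) := Nat.mul_pos hf hNpos
    omega
  have hL := Cfsg.Agent.H277.CS.lat_psl_sub (F := F) hp hf hF (by omega : 3 ≤ n) hs hso
  have hP := perf_of_lat hL hs hp hsp hG hpS
  have hZ := center_eq_bot_of hG hP hreg
  have hqF : Nat.card F = p ^ f := by rw [Nat.card_eq_fintype_card, hF]
  have hdvd : ∀ d, (r ∣ (p ^ f) ^ d - 1 ↔ n ∣ d) := fun d => by
    rw [Cfsg.Agent.Lib.Zsigmondy.dvd_pow_sub_one_iff (Nat.one_le_pow _ _ hp.pos), hro]
  have hrG : r ∣ Nat.card G := by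
    rw [hG.card]
    -- the order formula
    have h1 := hY.eq
    have h2 : r ∣ Art.num (.L n) (p ^ f) := by
      show r ∣ ∏ i ∈ Finset.range (n - 1), ((p ^ f) ^ (i + 2) - 1)
      refine dvd_trans ((hdvd n).2 dvd_rfl) ?_
      have := Finset.dvd_prod_of_mem (fun i => (p ^ f) ^ (i + 2) - 1) (Finset.mem_range.2 (show n - 2 < n - 1 by omega))
      simp only [show n - 2 + 2 = n by omega] at this
      exact this
    have h3 : r ∣ Art.dd (.L n) (p ^ f) * Nat.card S := h1 ▸ Dvd.dvd.mul_left h2 _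
    refine (hr.dvd_mul.1 h3).resolve_left ?_
    intro h4
    have h5 : r ∣ p ^ f - 1 := h4.trans (Nat.gcd_dvd_right _ _)
    have h6 := (hdvd 1).1 (by rwa [pow_one])
    have := Nat.le_of_dvd one_pos h6
    omega
  have hsize : ∀ c ∈ CO G, c ≠ Nat.card G → r ∣ c → c * p ^ c.factorization p < Nat.card G := by
    intro c hc hcG hrc
    have h1 : c ≤ (p ^ f) ^ (n * (n / 2)) := by
      revert hrc
      refine co_bound hG (P := fun c => r ∣ c → c ≤ (p ^ f) ^ (n * (n / 2))) ?_ c hc hcG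
      intro x hx hrx
      have h2 := PslSize.card_cent_le_top (F := F) (n := n) hr (by rw [hqF]; exact (hdvd n).2 dvd_rfl)
        (by
          intro d hd hdn h3
          rw [hqF] at h3
          have := Nat.le_of_dvd hd ((hdvd d).1 h3)
          omega) hx hrx
      rwa [hqF] at h2
    obtain ⟨g, hg⟩ : ∃ g : G, Nat.card ↥(Cz g) = c := hc
    have h3 : c.factorization p ≤ (Nat.card G).factorization p := by
      apply (Nat.factorization_le_iff_dvd (hg ▸ Nat.card_pos.ne') Nat.card_pos.ne').2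
      rw [← hg]
      exact Subgroup.card_subgroup_dvd_card _
    calc c * p ^ c.factorization p ≤ (p ^ f) ^ (n * (n / 2)) * p ^ (Nat.card G).factorization p :=
          Nat.mul_le_mul h1 (Nat.pow_le_pow_right hp.pos h3)
      _ = (p ^ f) ^ (n * (n / 2)) * (p ^ f) ^ (n * (n - 1) / 2) := by rw [hN, pow_mul p f]
      _ < Nat.card G := by rw [hG.card]; exact hrsize
  have hOp : pCore p G = ⊥ :=
    pCore_eq_bot_of_fpf hp hs hr hP.sG hrG
      (fun V hVn hV hVc y hy x hx hxy => fpf_of_nonAdj hs hp hsp hP.na V hV hy hx hxy)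
      (fun V hVn hV hVc y hy x hx hxy => fpf_of_size hp hZ hsize V hVn hV hVc hy hx hxy) ha hb (by rw [hN]; exact hlcm)
  have hdom := hY.dom (by simp; omega) hs hsp (by simp) (by simp)
  rw [Art.P, ← pow_mul] at hdom
  obtain ⟨K, hKn, N, hNn, hNs, h1, h2, h3, h4, h5, h6, h7, h8, h9⟩ := hP.final hS (by rw [hG.card]; exact hpS)
    (by rw [hN, hG.card]; exact hdom) hOp (fun l hl hlm => hcore l hl (fun h => hP.not_p_m (h ▸ hlm)))
  refine ⟨K, hKn, N, hNn, hNs, h1, h4, h5, h6, h7, h9 fun l hl => ?_⟩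
  by_cases hlp : l = p
  · rw [hlp]; exact hOp
  · exact hcore l hl hlp

end Cfsg.Agent.H402.CS.PslRow
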